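import Mathlib

set_option autoImplicit false

namespace Cfsg.Agent.Helper10.CW2

variable {G : Type*} [Group G]

/-- difference operator on functions to `ZMod 2` -/
def dD (u : G) (f : G → ZMod 2) : G → ZMod 2 := fun x => f (x * u) + f x

/-- degree at most `n` (all `(n+1)`-fold differences vanish) -/
def Deg : ℕ → (G → ZMod 2) → Prop
  | 0, f => ∀ u x, f (x * u) = f x
  | (n+1), f => ∀ u, Deg n (dD u f)

theorem z2_add_self (a : ZMod 2) : a + a = 0 := by
  revert a; decide

theorem deg_succ : ∀ (n : ℕ) (f : G → ZMod 2), Deg n f → Deg (n+1) f := by
  intro n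
  induction n with
  | zero =>
    intro f hf u v x
    show f (x * v * u) + f (x * v) = f (x * u) + f x
    rw [hf u (x * v), hf v x, hf u x]
  | succ n ih =>
    intro f hf u
    exact ih _ (hf u)

theorem deg_add : ∀ (n : ℕ) (f g : G → ZMod 2), Deg n f → Deg n g → Deg n (f + g) := by
  intro n
  induction n with
  | zero =>
    intro f g hf hg u x
    show f (x * u) + g (x * u) = f x + g x
    rw [hf u x, hg u x]
  | succ n ih =>
    intro f g hf hg u
    have : dD u (f + g) = dD u f + dD u g := by
      funext x
      simp only [dD, Pi.add_apply]
      ring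
    rw [this]
    exact ih _ _ (hf u) (hg u)

theorem dD_mul (u : G) (f g : G → ZMod 2) :
    dD u (f * g) = dD u f * g + f * dD u g + dD u f * dD u g := by
  funext x
  simp only [dD, Pi.add_apply, Pi.mul_apply]
  have h2 : (2 : ZMod 2) = 0 := by decide
  linear_combination (-(f x * g x) - f (x * u) * g x - f x * g (x * u)) * h2

theorem deg_mul : ∀ (s a b : ℕ) (f g : G → ZMod 2), a + b = s → Deg a f → Deg b g →
    Deg s (f * g) := by
  intro s
  induction s using Nat.strong_induction_on with
  | _ s ih =>
    intro a b f g hab hf hg
    rcases a with _ | a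
    · rcases b with _ | b
      · have e : s = 0 := by omega
        subst e
        intro u x
        show f (x * u) * g (x * u) = f x * g x
        rw [hf u x, hg u x]
      · have e : s = b + 1 := by omega
        subst e
        intro u
        have : dD u (f * g) = f * dD u g := by
          funext x
          simp only [dD, Pi.mul_apply]
          rw [hf u x]; ring
        rw [this]
        exact ih b (by omega) 0 b f (dD u g) (by omega) hf (hg u)
    · rcases b with _ | b
      · have e : s = a + 1 := by omega
        subst e
        intro u
        have : dD u (f * g) = dD u f * g := by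
          funext x
          simp only [dD, Pi.mul_apply]
          rw [hg u x]; ring
        rw [this]
        exact ih a (by omega) a 0 (dD u f) g (by omega) (hf u) hg
      · have e : s = (a + b + 1) + 1 := by omega
        subst e
        intro u
        rw [dD_mul]
        refine deg_add _ _ _ (deg_add _ _ _ ?_ ?_) ?_
        · exact ih (a + b + 1) (by omega) a (b+1) (dD u f) g (by omega) (hf u) hg
        · exact ih (a + b + 1) (by omega) (a+1) b f (dD u g) (by omega) hf (hg u)
        · exact deg_succ _ _ (ih (a + b) (by omega) a b (dD u f) (dD u g) rfl (hf u) (hg u))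

/-! ### cube sums -/

def csum : (G → ZMod 2) → List G → G → ZMod 2
  | f, [], x => f x
  | f, u :: us, x => csum (dD u f) us x

def pts : List G → G → List G
  | [], x => [x]
  | u :: us, x => (pts us x).map (· * u) ++ pts us x

theorem sum_dD (u : G) (f : G → ZMod 2) : ∀ l : List G,
    (l.map (dD u f)).sum = (l.map (fun y => f (y * u))).sum + (l.map f).sum := by
  intro l
  induction l with
  | nil => simp
  | cons a l ih =>
    simp only [List.map_cons, List.sum_cons, ih, dD]
    ring

theorem csum_eq : ∀ (us : List G) (f : G → ZMod 2) (x : G),
    csum f us x = ((pts us x).map f).sum := by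
  intro us
  induction us with
  | nil => intro f x; simp [csum, pts]
  | cons u us ih =>
    intro f x
    simp only [csum, pts]
    rw [ih (dD u f) x, sum_dD, List.map_append, List.sum_append, List.map_map]
    rfl

theorem csum_zero : ∀ (n : ℕ) (f : G → ZMod 2) (us : List G), Deg n f → us.length = n + 1 →
    ∀ x, csum f us x = 0 := by
  intro n
  induction n with
  | zero =>
    intro f us hf hlen x
    match us, hlen with
    | [u], _ =>
      show f (x * u) + f x = 0
      rw [hf u x]; exact z2_add_self _
  | succ n ih =>
    intro f us hf hlen x
    match us, hlen with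
    | u :: us', hlen' =>
      show csum (dD u f) us' x = 0
      exact ih (dD u f) us' (hf u) (by simpa using hlen') x

def Good (E : Subgroup G) : List G → Prop
  | [] => True
  | u :: us => Good E us ∧ ∀ q ∈ pts us 1, q * u ∉ E

theorem good_sum (E : Subgroup G) (F : G → ZMod 2) (hF1 : F 1 = 1)
    (hF0 : ∀ p, p ∉ E → F p = 0) : ∀ us : List G, Good E us → ((pts us 1).map F).sum = 1 := by
  intro us
  induction us with
  | nil => intro _; simp [pts, hF1]
  | cons u us ih =>
    intro hg
    obtain ⟨hg, hq⟩ := hg
    simp only [pts, List.map_append, List.sum_append, List.map_map]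
    rw [ih hg]
    have : ((pts us 1).map (F ∘ (· * u))).sum = 0 := by
      apply List.sum_eq_zero
      intro z hz
      rw [List.mem_map] at hz
      obtain ⟨q, hq', rfl⟩ := hz
      exact hF0 _ (hq q hq')
    rw [this, zero_add]

theorem pts_length : ∀ (us : List G) (x : G), (pts us x).length = 2 ^ us.length := by
  intro us
  induction us with
  | nil => intro x; simp [pts]
  | cons u us ih =>
    intro x
    simp only [pts, List.length_append, List.length_map, ih, List.length_cons, pow_succ]
    omega

theorem ext_good [Finite G] (E : Subgroup G) (hE4 : Nat.card E = 4) (us : List G)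
    (hlen : 4 * 2 ^ us.length < Nat.card G) : ∃ u, ∀ q ∈ pts us (1 : G), q * u ∉ E := by
  by_contra h
  push Not at h
  have hsurj : Function.Surjective
      (fun p : E × Fin (pts us (1 : G)).length => ((pts us (1 : G)).get p.2)⁻¹ * (p.1 : G)) := by
    intro u
    obtain ⟨q, hq, he⟩ := h u
    obtain ⟨i, hi⟩ := List.mem_iff_get.1 hq
    refine ⟨(⟨q * u, he⟩, i), ?_⟩
    show ((pts us (1 : G)).get i)⁻¹ * (q * u) = u
    rw [hi]; group
  have hE : Finite E := inferInstance
  have h1 := Nat.card_le_card_of_surjective _ hsurj
  rw [Nat.card_prod, hE4, Nat.card_fin, pts_length] at h1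
  omega

end Cfsg.Agent.Helper10.CW2
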