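import Mathlib
import Cfsg.Agent.Helper10.CW2a

set_option autoImplicit false

namespace Cfsg.Agent.Helper10.CW2

variable {G : Type*} [Group G]

theorem comm_mem (E : Subgroup G) (hEc : ∀ e ∈ E, ∀ x : G, e * x = x * e)
    (hsq : ∀ x : G, x * x ∈ E) (a b : G) : b * a * b⁻¹ * a⁻¹ ∈ E := by
  have h1 : (a * b) * (a * b) * (b * b)⁻¹ * (a * a)⁻¹ ∈ E :=
    E.mul_mem (E.mul_mem (hsq (a * b)) (E.inv_mem (hsq b))) (E.inv_mem (hsq a))
  have h2 : b * a * b⁻¹ * a⁻¹ = a⁻¹ * ((a * b) * (a * b) * (b * b)⁻¹ * (a * a)⁻¹) * a := by group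
  have h3 : a⁻¹ * ((a * b) * (a * b) * (b * b)⁻¹ * (a * a)⁻¹) * a
      = (a * b) * (a * b) * (b * b)⁻¹ * (a * a)⁻¹ := by
    rw [mul_assoc a⁻¹, hEc _ h1 a, inv_mul_cancel_left]
  rw [h2, h3]; exact h1

theorem sq_mul (E : Subgroup G) (hEc : ∀ e ∈ E, ∀ x : G, e * x = x * e)
    (hsq : ∀ x : G, x * x ∈ E) (a b : G) :
    (a * b) * (a * b) = (b * a * b⁻¹ * a⁻¹) * (a * a) * (b * b) := by
  have hc := comm_mem E hEc hsq a b
  calc (a * b) * (a * b) = a * (b * a * b⁻¹ * a⁻¹) * a * (b * b) := by group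
    _ = (b * a * b⁻¹ * a⁻¹) * a * a * (b * b) := by rw [← hEc _ hc a]
    _ = (b * a * b⁻¹ * a⁻¹) * (a * a) * (b * b) := by group

theorem comm_mul (E : Subgroup G) (hEc : ∀ e ∈ E, ∀ x : G, e * x = x * e)
    (hsq : ∀ x : G, x * x ∈ E) (a a' b : G) :
    b * (a * a') * b⁻¹ * (a * a')⁻¹ = (b * a * b⁻¹ * a⁻¹) * (b * a' * b⁻¹ * a'⁻¹) := by
  have hc' := comm_mem E hEc hsq a' b
  calc b * (a * a') * b⁻¹ * (a * a')⁻¹
      = b * a * b⁻¹ * ((b * a' * b⁻¹ * a'⁻¹) * a⁻¹) := by group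
    _ = b * a * b⁻¹ * (a⁻¹ * (b * a' * b⁻¹ * a'⁻¹)) := by rw [hEc _ hc' a⁻¹]
    _ = _ := by group

open Classical in
noncomputable def lamOf (H : Subgroup G) (x : G) : ZMod 2 := if x ∈ H then 0 else 1

theorem lam_add (H E : Subgroup G) (hidx : (H.subgroupOf E).index = 2) :
    ∀ a ∈ E, ∀ b ∈ E, lamOf H (a * b) = lamOf H a + lamOf H b := by
  intro a ha b hb
  have key := Subgroup.mul_mem_iff_of_index_two hidx (a := ⟨a, ha⟩) (b := ⟨b, hb⟩)
  simp only [Subgroup.mem_subgroupOf, Subgroup.coe_mul] at key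
  unfold lamOf
  by_cases h1 : a ∈ H <;> by_cases h2 : b ∈ H
  · have : a * b ∈ H := key.2 (by tauto)
    rw [if_pos this, if_pos h1, if_pos h2]; decide
  · have : a * b ∉ H := fun h => h2 ((key.1 h).1 h1)
    rw [if_neg this, if_pos h1, if_neg h2]; decide
  · have : a * b ∉ H := fun h => h1 ((key.1 h).2 h2)
    rw [if_neg this, if_neg h1, if_pos h2]; decide
  · have : a * b ∈ H := key.2 (by tauto)
    rw [if_pos this, if_neg h1, if_neg h2]; decide

theorem z2id (A B P Q R : ZMod 2) : (A + B + P + Q) + P + ((A + R + Q) + R) = B := by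
  revert A B P Q R; decide

theorem deg2 (E : Subgroup G) (hEc : ∀ e ∈ E, ∀ x : G, e * x = x * e)
    (hsq : ∀ x : G, x * x ∈ E) (lam : G → ZMod 2)
    (hadd : ∀ a ∈ E, ∀ b ∈ E, lam (a * b) = lam a + lam b) :
    Deg 2 (fun x => lam (x * x)) := by
  have L_mul : ∀ a b : G, lam ((a * b) * (a * b))
      = lam (b * a * b⁻¹ * a⁻¹) + lam (a * a) + lam (b * b) := by
    intro a b
    rw [sq_mul E hEc hsq a b, hadd _ (E.mul_mem (comm_mem E hEc hsq a b) (hsq a)) _ (hsq b),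
      hadd _ (comm_mem E hEc hsq a b) _ (hsq a)]
  have key : ∀ u v y : G, dD v (dD u (fun x => lam (x * x))) y = lam (u * v * u⁻¹ * v⁻¹) := by
    intro u v y
    show (lam ((y * v * u) * (y * v * u)) + lam ((y * v) * (y * v)))
        + (lam ((y * u) * (y * u)) + lam (y * y)) = _
    rw [L_mul (y * v) u, L_mul y u, comm_mul E hEc hsq y v u,
      hadd _ (comm_mem E hEc hsq y u) _ (comm_mem E hEc hsq v u)]
    exact z2id _ _ _ _ _
  intro u v w x
  rw [key, key]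

theorem zpow_inv2 (e : G) (he : e * e = 1) : ∀ k : ℤ, e ^ k = 1 ∨ e ^ k = e := by
  have hinv : e⁻¹ = e := inv_eq_of_mul_eq_one_left he
  intro k
  refine Int.induction_on k ?_ ?_ ?_
  · left; simp
  · intro i ih
    rcases ih with h | h
    · right; rw [zpow_add_one, h, one_mul]
    · left; rw [zpow_add_one, h, he]
  · intro i ih
    rcases ih with h | h
    · right; rw [zpow_sub_one, h, one_mul, hinv]
    · left; rw [zpow_sub_one, h, hinv, he]

theorem mem_zp (e : G) (he : e * e = 1) (x : G) (hx : x ∈ Subgroup.zpowers e) :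
    x = 1 ∨ x = e := by
  obtain ⟨k, rfl⟩ := Subgroup.mem_zpowers_iff.1 hx
  exact zpow_inv2 e he k

theorem card_zp (e : G) (he : e * e = 1) (he1 : e ≠ 1) :
    Nat.card (Subgroup.zpowers e) = 2 := by
  haveI : Fact (Nat.Prime 2) := ⟨Nat.prime_two⟩
  rw [Nat.card_zpowers]; exact orderOf_eq_prime (by rw [pow_two]; exact he) he1

theorem idx_two [Finite G] (E : Subgroup G) (hE4 : Nat.card E = 4) (e : G) (heE : e ∈ E)
    (he : e * e = 1) (he1 : e ≠ 1) : ((Subgroup.zpowers e).subgroupOf E).index = 2 := by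
  have hle : Subgroup.zpowers e ≤ E := by rw [Subgroup.zpowers_le]; exact heE
  have hc := card_zp e he he1
  have hc' : Nat.card ((Subgroup.zpowers e).subgroupOf E) = 2 := by
    rw [← hc]; exact Nat.card_congr (Subgroup.subgroupOfEquivOfLe hle).toEquiv
  have := Subgroup.card_mul_index ((Subgroup.zpowers e).subgroupOf E)
  rw [hc', hE4] at this
  omega

/-- Chevalley–Warning for two quadratic forms, in group form: a group of order at least 128 in
which all squares lie in a central elementary abelian subgroup `E` of order 4 has an involution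
outside `E`. -/
theorem main [Finite G] (E : Subgroup G) (hEc : ∀ e ∈ E, ∀ x : G, e * x = x * e)
    (hE2 : ∀ e ∈ E, e * e = 1) (hE4 : Nat.card E = 4) (hsq : ∀ x : G, x * x ∈ E)
    (hcard : 128 ≤ Nat.card G) : ∃ x : G, x ∉ E ∧ x * x = 1 := by
  by_contra hno
  push Not at hno
  obtain ⟨e₁, he₁, he₁1⟩ : ∃ e ∈ E, e ≠ 1 := by
    by_contra h
    push Not at h
    have : E = ⊥ := (Subgroup.eq_bot_iff_forall E).2 h
    rw [this] at hE4
    simp at hE4
  have hi₁ := idx_two E hE4 e₁ he₁ (hE2 e₁ he₁) he₁1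
  obtain ⟨e₂, he₂, he₂1⟩ : ∃ e ∈ E, e ∉ Subgroup.zpowers e₁ := by
    by_contra h
    push Not at h
    have hle : E ≤ Subgroup.zpowers e₁ := fun x hx => h x hx
    have h1 := Subgroup.card_le_of_le hle
    have hc := card_zp e₁ (hE2 e₁ he₁) he₁1
    omega
  have he₂ne : e₂ ≠ 1 := fun h => he₂1 (h ▸ Subgroup.one_mem _)
  have hi₂ := idx_two E hE4 e₂ he₂ (hE2 e₂ he₂) he₂ne
  have hinter : ∀ y, y ∈ Subgroup.zpowers e₁ → y ∈ Subgroup.zpowers e₂ → y = 1 := by
    intro y h1 h2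
    rcases mem_zp e₁ (hE2 e₁ he₁) y h1 with h | h
    · exact h
    · rcases mem_zp e₂ (hE2 e₂ he₂) y h2 with h' | h'
      · exact h'
      · exfalso; apply he₂1; rw [← h', h]; exact Subgroup.mem_zpowers e₁
  obtain ⟨F, hdeg, hF1, hF0⟩ : ∃ F : G → ZMod 2, Deg 4 F ∧ F 1 = 1 ∧ ∀ p, p ∉ E → F p = 0 := by
    refine ⟨(1 + fun x => lamOf (Subgroup.zpowers e₁) (x * x))
      * (1 + fun x => lamOf (Subgroup.zpowers e₂) (x * x)), ?_, ?_, ?_⟩
    · have hc : Deg 0 (1 : G → ZMod 2) := fun u x => rfl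
      have hd1 : Deg 2 (1 + fun x => lamOf (Subgroup.zpowers e₁) (x * x)) :=
        deg_add 2 _ _ (deg_succ _ _ (deg_succ _ _ hc))
          (deg2 E hEc hsq (lamOf (Subgroup.zpowers e₁)) (lam_add _ E hi₁))
      have hd2 : Deg 2 (1 + fun x => lamOf (Subgroup.zpowers e₂) (x * x)) :=
        deg_add 2 _ _ (deg_succ _ _ (deg_succ _ _ hc))
          (deg2 E hEc hsq (lamOf (Subgroup.zpowers e₂)) (lam_add _ E hi₂))
      exact deg_mul 4 2 2 _ _ rfl hd1 hd2
    · show (1 + lamOf (Subgroup.zpowers e₁) (1 * 1)) * (1 + lamOf (Subgroup.zpowers e₂) (1 * 1)) = 1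
      simp [lamOf, Subgroup.one_mem]
    · intro p hp
      have hpp : p * p ≠ 1 := hno p hp
      show (1 + lamOf (Subgroup.zpowers e₁) (p * p)) * (1 + lamOf (Subgroup.zpowers e₂) (p * p)) = 0
      have h11 : (1 : ZMod 2) + 1 = 0 := by decide
      by_cases h1 : p * p ∈ Subgroup.zpowers e₁
      · have h2 : p * p ∉ Subgroup.zpowers e₂ := fun h2 => hpp (hinter _ h1 h2)
        simp only [lamOf, if_neg h2]
        rw [h11, mul_zero]
      · simp only [lamOf, if_neg h1]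
        rw [h11, zero_mul]
  obtain ⟨u₁, h₁⟩ := ext_good E hE4 [] (by have := hcard; simp; omega)
  have g₁ : Good E [u₁] := ⟨trivial, h₁⟩
  obtain ⟨u₂, h₂⟩ := ext_good E hE4 [u₁] (by have := hcard; simp; omega)
  have g₂ : Good E [u₂, u₁] := ⟨g₁, h₂⟩
  obtain ⟨u₃, h₃⟩ := ext_good E hE4 [u₂, u₁] (by have := hcard; simp; omega)
  have g₃ : Good E [u₃, u₂, u₁] := ⟨g₂, h₃⟩
  obtain ⟨u₄, h₄⟩ := ext_good E hE4 [u₃, u₂, u₁] (by have := hcard; simp; omega)
  have g₄ : Good E [u₄, u₃, u₂, u₁] := ⟨g₃, h₄⟩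
  obtain ⟨u₅, h₅⟩ := ext_good E hE4 [u₄, u₃, u₂, u₁] (by have := hcard; simp; omega)
  have g₅ : Good E [u₅, u₄, u₃, u₂, u₁] := ⟨g₄, h₅⟩
  have hz := csum_zero 4 F [u₅, u₄, u₃, u₂, u₁] hdeg rfl 1
  rw [csum_eq, good_sum E F hF1 hF0 _ g₅] at hz
  exact absurd hz (by decide)

end Cfsg.Agent.Helper10.CW2
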