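import Mathlib
import Cfsg.Prelude.Def_FusionSystem
import Cfsg.Prelude.Def_RootSubgroups
import Cfsg.Agent.Helper10.QdData2

/-!
# Transport of Qd(p)-data: conjugation, coprime quotients, fusion-preserving maps
-/

set_option autoImplicit false

namespace Cfsg.Agent.Helper10

variable {p : ℕ} {X : Type*} [Group X]

/-- Conjugating Qd(p)-data. -/
theorem IsQdData.conj {V H : Subgroup X} {e : X → Fin 2 → ZMod p} (h : IsQdData p V e H) (g : X) :
    IsQdData p (Cfsg.conjBy V g) (fun x => e (g⁻¹ * x * g)) (Cfsg.conjBy H g) := by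
  obtain ⟨h1, h2, h3, h4⟩ := h
  refine ⟨h1.map _, ?_, ?_, ?_⟩
  · rintro _ ⟨v, hv, rfl⟩ _ ⟨w, hw, rfl⟩
    show e (g⁻¹ * (g * v * g⁻¹ * (g * w * g⁻¹)) * g) = e (g⁻¹ * (g * v * g⁻¹) * g) + e (g⁻¹ * (g * w * g⁻¹) * g)
    have e1 : g⁻¹ * (g * v * g⁻¹ * (g * w * g⁻¹)) * g = v * w := by group
    have e2 : g⁻¹ * (g * v * g⁻¹) * g = v := by group
    have e3 : g⁻¹ * (g * w * g⁻¹) * g = w := by group
    rw [e1, e2, e3]
    exact h2 v hv w hw
  · intro t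
    obtain ⟨v, hv, rfl⟩ := h3 t
    refine ⟨g * v * g⁻¹, ⟨v, hv, rfl⟩, ?_⟩
    show e (g⁻¹ * (g * v * g⁻¹) * g) = e v
    congr 1; group
  · intro A
    obtain ⟨x, hx, hx'⟩ := h4 A
    refine ⟨g * x * g⁻¹, ⟨x, hx, rfl⟩, ?_⟩
    rintro _ ⟨v, hv, rfl⟩
    obtain ⟨ha, hb⟩ := hx' v hv
    have e0 : g * x * g⁻¹ * (g * v * g⁻¹) * (g * x * g⁻¹)⁻¹ = g * (x * v * x⁻¹) * g⁻¹ := by group
    refine ⟨?_, ?_⟩
    · show g * x * g⁻¹ * (g * v * g⁻¹) * (g * x * g⁻¹)⁻¹ ∈ Cfsg.conjBy V g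
      rw [e0]
      exact ⟨x * v * x⁻¹, ha, rfl⟩
    · show e (g⁻¹ * (g * x * g⁻¹ * (g * v * g⁻¹) * (g * x * g⁻¹)⁻¹) * g) =
        (A : Matrix (Fin 2) (Fin 2) (ZMod p)).mulVec (e (g⁻¹ * (g * v * g⁻¹) * g))
      have e1 : g⁻¹ * (g * x * g⁻¹ * (g * v * g⁻¹) * (g * x * g⁻¹)⁻¹) * g = x * v * x⁻¹ := by group
      have e2 : g⁻¹ * (g * v * g⁻¹) * g = v := by group
      rw [e1, e2]
      exact hb

/-- A `p`-subgroup meets a normal subgroup of order prime to `p` trivially. -/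
theorem eq_one_of_mem_pgroup_coprime [Finite X] [Fact p.Prime] {V K : Subgroup X} (hV : IsPGroup p V)
    (hK : (Nat.card K).Coprime p) {x : X} (hxV : x ∈ V) (hxK : x ∈ K) : x = 1 := by
  obtain ⟨k, hk⟩ := hV ⟨x, hxV⟩
  have hk' : x ^ (p ^ k) = 1 := by
    have := congrArg Subtype.val hk
    simpa using this
  have h1 : orderOf x ∣ p ^ k := orderOf_dvd_of_pow_eq_one hk'
  have h2 : orderOf x ∣ Nat.card K := by
    have := orderOf_dvd_natCard (⟨x, hxK⟩ : K)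
    rwa [Subgroup.orderOf_mk] at this
  have hcop : Nat.Coprime (p ^ k) (Nat.card K) := (Nat.Coprime.pow_right k hK).symm
  exact orderOf_eq_one_iff.mp (Nat.eq_one_of_dvd_coprimes hcop h1 h2)

open Classical in
/-- Qd(p)-data pass to the quotient by a normal subgroup of order prime to `p`. -/
theorem QdData.quot_coprime [Finite X] [Fact p.Prime] (K : Subgroup X) [K.Normal]
    (hK : (Nat.card K).Coprime p) (h : QdData p X) : QdData p (X ⧸ K) := by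
  obtain ⟨V, e, h1, h2, h3, h4⟩ := h
  let ebar : X ⧸ K → Fin 2 → ZMod p := fun y =>
    if hy : ∃ v ∈ V, (QuotientGroup.mk' K) v = y then e (Classical.choose hy) else 0
  have hebar : ∀ v ∈ V, ebar ((QuotientGroup.mk' K) v) = e v := by
    intro v hv
    have hy : ∃ v' ∈ V, (QuotientGroup.mk' K) v' = (QuotientGroup.mk' K) v := ⟨v, hv, rfl⟩
    have hdef : ebar ((QuotientGroup.mk' K) v) = e (Classical.choose hy) := dif_pos hy
    obtain ⟨hv', hq⟩ := Classical.choose_spec hy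
    have hmem : (Classical.choose hy)⁻¹ * v ∈ K := by
      have := QuotientGroup.eq.mp hq
      exact this
    have hone := eq_one_of_mem_pgroup_coprime h1 hK (V.mul_mem (V.inv_mem hv') hv) hmem
    rw [hdef]
    congr 1
    exact inv_mul_eq_one.mp hone
  refine ⟨V.map (QuotientGroup.mk' K), ebar, h1.map _, ?_, ?_, ?_⟩
  · rintro _ ⟨v, hv, rfl⟩ _ ⟨w, hw, rfl⟩
    rw [← map_mul, hebar _ (V.mul_mem hv hw), hebar v hv, hebar w hw]
    exact h2 v hv w hw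
  · intro t
    obtain ⟨v, hv, rfl⟩ := h3 t
    exact ⟨_, ⟨v, hv, rfl⟩, hebar v hv⟩
  · intro A
    obtain ⟨x, -, hx'⟩ := h4 A
    refine ⟨(QuotientGroup.mk' K) x, Subgroup.mem_top _, ?_⟩
    rintro _ ⟨v, hv, rfl⟩
    obtain ⟨ha, hb⟩ := hx' v hv
    have e0 : (QuotientGroup.mk' K) x * (QuotientGroup.mk' K) v * ((QuotientGroup.mk' K) x)⁻¹ =
        (QuotientGroup.mk' K) (x * v * x⁻¹) := by
      rw [map_mul, map_mul, map_inv]
    rw [e0]
    refine ⟨⟨_, ha, rfl⟩, ?_⟩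
    rw [hebar _ ha, hebar v hv]
    exact hb

/-- Qd(p)-data in `L` supported on `ι(T)` transfer to `G ≥ T` when every conjugation of `L` normalizing the
support is realised (through `ι`) by conjugation in `G`. -/
theorem qdData_of_fusion {L : Type*} [Group L] {G : Type*} [Group G] (T : Subgroup G) (ι : T →* L)
    {V : Subgroup L} {e : L → Fin 2 → ZMod p} (h : IsQdData p V e ⊤) (hV : V ≤ ι.range)
    (hι : Function.Injective ι)
    (hfus : ∀ l : L, (∀ v ∈ V, l * v * l⁻¹ ∈ V) → ∃ g : G, ∀ x : T, ι x ∈ V →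
      ∃ hx : g * (x : G) * g⁻¹ ∈ T, ι ⟨g * x * g⁻¹, hx⟩ = l * ι x * l⁻¹) :
    QdData p G := by
  obtain ⟨h1, h2, h3, h4⟩ := h
  refine ⟨(V.comap ι).map T.subtype, extZero T (fun x => e (ι x)),
    (h1.comap_of_injective ι hι).map _, ?_, ?_, ?_⟩
  · rintro _ ⟨v, hv, rfl⟩ _ ⟨w, hw, rfl⟩
    show extZero T (fun x => e (ι x)) ((v * w : T) : G) = extZero T (fun x => e (ι x)) (v : G) +
      extZero T (fun x => e (ι x)) (w : G)
    rw [extZero_coe, extZero_coe, extZero_coe, map_mul]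
    exact h2 _ hv _ hw
  · intro t
    obtain ⟨v, hv, rfl⟩ := h3 t
    obtain ⟨x, rfl⟩ := hV hv
    refine ⟨(x : G), ⟨x, hv, rfl⟩, ?_⟩
    rw [extZero_coe]
  · intro A
    obtain ⟨l, -, hl⟩ := h4 A
    obtain ⟨g, hg⟩ := hfus l (fun v hv => (hl v hv).1)
    refine ⟨g, Subgroup.mem_top _, ?_⟩
    rintro _ ⟨x, hx, rfl⟩
    obtain ⟨hxT, hxι⟩ := hg x hx
    obtain ⟨ha, hb⟩ := hl (ι x) hx
    refine ⟨⟨⟨g * (x : G) * g⁻¹, hxT⟩, ?_, rfl⟩, ?_⟩
    · show ι ⟨g * (x : G) * g⁻¹, hxT⟩ ∈ V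
      rw [hxι]; exact ha
    · show extZero T (fun x => e (ι x)) ((⟨g * (x : G) * g⁻¹, hxT⟩ : T) : G) =
        (A : Matrix (Fin 2) (Fin 2) (ZMod p)).mulVec (extZero T (fun x => e (ι x)) (x : G))
      rw [extZero_coe, extZero_coe, hxι]
      exact hb

end Cfsg.Agent.Helper10
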