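import Mathlib
import Cfsg.Prelude.Def_FusionSystem
import Cfsg.Prelude.Def_FusionReduction
import Cfsg.Agent.Helper10.QdFusion
import Cfsg.Agent.Helper10.SecFusion2
import Cfsg.Agent.Helper25.GroupFusion

/-!
# Group fusion systems: normalizer systems, local models, and Qd(p)-freeness
-/

set_option autoImplicit false

namespace Cfsg.Agent.Helper10

open Cfsg Cfsg.Agent.Helper25

universe u

section NormSys

variable {G : Type*} [Group G]

/-- The normalizer system of `Q ≤ S` in the fusion system of `G` on `S` is the fusion system of `N_G(Q)` on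
`N_S(Q)`. -/
theorem isNormalizerSystem_group (S Q : Subgroup G) (hQ : Q ≤ S) :
    (groupFusionSystem S).IsNormalizerSystem Q
      (fusionSystemOfSubgroup (Subgroup.normalizer (Q : Set G)) (FusionSystem.normalizerIn S Q)
        inf_le_right) := by
  intro A
  ext φ
  constructor
  · rintro ⟨hA, hφT, g, hg, hφ⟩
    have hle : A ⊔ Q ≤ S.comap (MulAut.conj g).toMonoidHom := by
      apply sup_le
      · intro x hx
        show g * x * g⁻¹ ∈ S
        have := (hφT ⟨x, hx⟩).1
        rw [hφ ⟨x, hx⟩] at this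
        exact this
      · intro q hq
        exact hQ ((Subgroup.mem_normalizer_iff.mp hg q).mp hq)
    refine ⟨⟨hA.trans inf_le_left, fun x => (hφT x).1, g, hφ⟩, hA, hφT, conjHom (A ⊔ Q) g,
      ⟨sup_le (hA.trans inf_le_left) hQ, fun y => hle y.2, g, fun _ => rfl⟩, ?_, ?_⟩
    · intro x
      exact (hφ x).symm
    · ext y
      constructor
      · rintro ⟨q, hq, rfl⟩
        exact (Subgroup.mem_normalizer_iff.mp hg q).mp hq
      · intro hy
        have hq : g⁻¹ * y * g⁻¹⁻¹ ∈ Q :=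
          (Subgroup.mem_normalizer_iff.mp (Subgroup.inv_mem _ hg) y).mp hy
        refine ⟨⟨g⁻¹ * y * g⁻¹⁻¹, (le_sup_right : Q ≤ A ⊔ Q) hq⟩, hq, ?_⟩
        show g * (g⁻¹ * y * g⁻¹⁻¹) * g⁻¹ = y
        group
  · rintro ⟨-, hA, hφT, ψ, ⟨-, -, g, hg⟩, hagree, hmap⟩
    have hgN : g ∈ Subgroup.normalizer (Q : Set G) := by
      rw [Subgroup.mem_normalizer_iff]
      intro q
      constructor
      · intro hq
        have h1 : ψ ⟨q, (le_sup_right : Q ≤ A ⊔ Q) hq⟩ ∈ (Q.subgroupOf (A ⊔ Q)).map ψ :=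
          ⟨_, hq, rfl⟩
        rw [hmap, hg] at h1
        exact h1
      · intro hq
        rw [← hmap] at hq
        obtain ⟨q', hq', hqq⟩ := hq
        rw [hg] at hqq
        have h2 : (q' : G) = q := by
          have := congrArg (fun z => g⁻¹ * z * g) hqq
          simpa [mul_assoc] using this
        rw [← h2]
        exact hq'
    refine ⟨hA, hφT, g, hgN, fun x => ?_⟩
    rw [← hagree x, hg]
    rfl

end NormSys

section Local

variable {G : Type u} [Group G] [Finite G] {p : ℕ} [Fact p.Prime]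

/-- `Q` is fully normalized in the fusion system of `G` on the Sylow subgroup `P` as soon as `N_P(Q)` is a
Sylow subgroup of `N_G(Q)`. -/
theorem isFullyNormalized_of_card (P : Sylow p G) {Q : Subgroup G} (hQ : Q ≤ (P : Subgroup G))
    (hN : Nat.card ((P : Subgroup G) ⊓ Subgroup.normalizer (Q : Set G) : Subgroup G) =
      p ^ (Nat.card (Subgroup.normalizer (Q : Set G))).factorization p) :
    (groupFusionSystem (P : Subgroup G)).IsFullyNormalized Q := by
  refine ⟨hQ, fun Q' hconj => ?_⟩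
  obtain ⟨-, hQ', g, rfl⟩ := groupFusionSystem_isConj_iff.mp hconj
  exact (full_iff_card P (fun A => Subgroup.normalizer (A : Set G)) normalizer_conjBy
    (fun A => le_rfl) hQ).mpr hN g hQ'

/-- Centricity from the group-theoretic condition "every `p`-subgroup of `C_G(Q^g)` lies in `Q^g`". -/
theorem isCentric_of_forall (P : Sylow p G) {Q : Subgroup G} (hQ : Q ≤ (P : Subgroup G))
    (hC : ∀ (g : G) (B : Subgroup G), IsPGroup p B → B ≤ Subgroup.centralizer (conjBy Q g : Set G) →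
      B ≤ conjBy Q g) :
    (groupFusionSystem (P : Subgroup G)).IsCentric Q := by
  refine ⟨hQ, fun Q' hconj => ?_⟩
  obtain ⟨-, hQ', g, rfl⟩ := groupFusionSystem_isConj_iff.mp hconj
  exact hC g _ (P.isPGroup'.to_le inf_le_left) inf_le_right

end Local

section Model

variable {G : Type u} [Group G] [Finite G] {p : ℕ} [Fact p.Prime]

/-- The `p'`-core of a finite group is normal (as an instance, for forming the quotient). -/
theorem pPrimeCoreNormal (p : ℕ) (H : Type*) [Group H] [Finite H] : (pPrimeCore p H).Normal :=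
  Helper23.pPrimeCore_normal_fin p

attribute [local instance] pPrimeCoreNormal

/-- **Local models.** Let `T ≤ N` be a Sylow `p`-subgroup of the subgroup `N` of the finite group `G`, and `Q ≤ T`
a subgroup normal in `N` with `C_T(Q) ≤ Q`. Then `N / O_{p'}(N)` is a model of the fusion system of `N` on `T`. -/
theorem model_of_centric {N T Q : Subgroup G} (hTN : T ≤ N) (hTp : IsPGroup p T)
    (hTcard : Nat.card T = p ^ (Nat.card N).factorization p) (hQT : Q ≤ T)
    (hQN : N ≤ Subgroup.normalizer (Q : Set G))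
    (hCQ : T ⊓ Subgroup.centralizer (Q : Set G) ≤ Q) :
    (fusionSystemOfSubgroup N T hTN).IsModel p (↥N ⧸ pPrimeCore p ↥N)
      ((QuotientGroup.mk' (pPrimeCore p ↥N)).comp (Subgroup.inclusion hTN)) := by
  have hK : (Nat.card (pPrimeCore p ↥N)).Coprime p := Helper23.pPrimeCore_coprime p
  have hRp : IsPGroup p (T.subgroupOf N) := hTp.comap_of_injective _ (Subgroup.subtype_injective N)
  have hπR : ∀ x y : ↥N, x ∈ T.subgroupOf N → y ∈ T.subgroupOf N →
      (QuotientGroup.mk' (pPrimeCore p ↥N)) x = (QuotientGroup.mk' (pPrimeCore p ↥N)) y → x = y := by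
    intro x y hx hy hxy
    have h1 : x⁻¹ * y ∈ pPrimeCore p ↥N := QuotientGroup.eq.mp hxy
    have h2 := eq_one_of_mem_pgroup_coprime hRp hK
      ((T.subgroupOf N).mul_mem ((T.subgroupOf N).inv_mem hx) hy) h1
    exact inv_mul_eq_one.mp h2
  have hjR : ∀ t : ↥T, Subgroup.inclusion hTN t ∈ T.subgroupOf N := fun t =>
    Subgroup.mem_subgroupOf.mpr t.2
  have hinj : Function.Injective ((QuotientGroup.mk' (pPrimeCore p ↥N)).comp (Subgroup.inclusion hTN)) := by
    intro a b hab
    exact Subgroup.inclusion_injective hTN (hπR _ _ (hjR a) (hjR b) hab)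
  have hRcard : Nat.card (T.subgroupOf N) = p ^ (Nat.card (⊤ : Subgroup ↥N)).factorization p := by
    rw [Subgroup.card_top, Nat.card_congr (Subgroup.subgroupOfEquivOfLe hTN).toEquiv]
    exact hTcard
  -- the image of `T` is a Sylow subgroup of the quotient
  obtain ⟨R0, hR0⟩ := (isSylowIn_iff_card hTN).mpr hTcard
  have hT' : ((R0.mapSurjective (QuotientGroup.mk'_surjective (pPrimeCore p ↥N)) :
      Sylow p (↥N ⧸ pPrimeCore p ↥N)) : Subgroup (↥N ⧸ pPrimeCore p ↥N)) =
      ((QuotientGroup.mk' (pPrimeCore p ↥N)).comp (Subgroup.inclusion hTN)).range := by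
    rw [Sylow.coe_mapSurjective, hR0, MonoidHom.range_comp, Subgroup.inclusion_range]
  refine ⟨inferInstance, ⟨hinj, ?_⟩, ⟨_, hT'⟩, ?_⟩
  · -- realization
    intro A hA φ hφ
    constructor
    · rintro ⟨-, -, g, hgN, hg⟩
      refine ⟨(QuotientGroup.mk' (pPrimeCore p ↥N)) ⟨g, hgN⟩, fun x => ?_⟩
      show (QuotientGroup.mk' (pPrimeCore p ↥N)) (Subgroup.inclusion hTN ⟨φ x, hφ x⟩) =
        (QuotientGroup.mk' (pPrimeCore p ↥N)) ⟨g, hgN⟩ *
          (QuotientGroup.mk' (pPrimeCore p ↥N)) (Subgroup.inclusion hTN ⟨x, hA x.2⟩) *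
          ((QuotientGroup.mk' (pPrimeCore p ↥N)) ⟨g, hgN⟩)⁻¹
      rw [← map_inv, ← map_mul, ← map_mul]
      congr 1
      apply Subtype.ext
      show φ x = g * (x : G) * g⁻¹
      exact hg x
    · rintro ⟨l, hl⟩
      obtain ⟨n0, rfl⟩ := QuotientGroup.mk'_surjective (pPrimeCore p ↥N) l
      have hAp : IsPGroup p (A.subgroupOf N) :=
        (hTp.to_le hA).comap_of_injective _ (Subgroup.subtype_injective N)
      have hB2p : IsPGroup p (conjBy (A.subgroupOf N) n0) := hAp.map _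
      have hl' : ∀ (a : ↥N) (ha : (a : G) ∈ A),
          (QuotientGroup.mk' (pPrimeCore p ↥N)) (Subgroup.inclusion hTN ⟨φ ⟨a, ha⟩, hφ _⟩) =
          (QuotientGroup.mk' (pPrimeCore p ↥N)) (n0 * a * n0⁻¹) := by
        intro a ha
        have h1 := hl ⟨(a : G), ha⟩
        rw [map_mul, map_mul, map_inv]
        exact h1
      have hB2le : conjBy (A.subgroupOf N) n0 ≤ T.subgroupOf N ⊔ pPrimeCore p ↥N := by
        rintro _ ⟨a, ha, rfl⟩
        have ha' : (a : G) ∈ A := Subgroup.mem_subgroupOf.mp ha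
        have hk : (Subgroup.inclusion hTN ⟨φ ⟨a, ha'⟩, hφ _⟩)⁻¹ * (n0 * a * n0⁻¹) ∈ pPrimeCore p ↥N :=
          QuotientGroup.eq.mp (hl' a ha')
        have e1 : n0 * a * n0⁻¹ = (Subgroup.inclusion hTN ⟨φ ⟨a, ha'⟩, hφ _⟩) *
            ((Subgroup.inclusion hTN ⟨φ ⟨a, ha'⟩, hφ _⟩)⁻¹ * (n0 * a * n0⁻¹)) := by group
        show n0 * a * n0⁻¹ ∈ T.subgroupOf N ⊔ pPrimeCore p ↥N
        rw [e1]
        exact Subgroup.mul_mem_sup (hjR _) hk
      have hnormK : T.subgroupOf N ≤ Subgroup.normalizer ((pPrimeCore p ↥N : Subgroup ↥N) : Set ↥N) := by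
        rw [Subgroup.normalizer_eq_top_iff.mpr (pPrimeCoreNormal p ↥N)]
        exact le_top
      obtain ⟨c, hcK, hc⟩ := exists_conj_le_of_sup (p := p) (K := T.subgroupOf N)
        (C := pPrimeCore p ↥N) (H := ⊤) le_top le_top hnormK hRcard hRp hB2p hB2le
      refine ⟨hA, hφ, ((c * n0 : ↥N) : G), (c * n0).2, fun x => ?_⟩
      have hxN : (x : G) ∈ N := hTN (hA x.2)
      have hx1 : c * (n0 * ⟨(x : G), hxN⟩ * n0⁻¹) * c⁻¹ ∈ T.subgroupOf N :=
        hc ⟨_, ⟨⟨(x : G), hxN⟩, Subgroup.mem_subgroupOf.mpr x.2, rfl⟩, rfl⟩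
      have heq : (QuotientGroup.mk' (pPrimeCore p ↥N)) (Subgroup.inclusion hTN ⟨φ x, hφ x⟩) =
          (QuotientGroup.mk' (pPrimeCore p ↥N)) (c * (n0 * ⟨(x : G), hxN⟩ * n0⁻¹) * c⁻¹) := by
        have hc1 : (QuotientGroup.mk' (pPrimeCore p ↥N)) c = 1 :=
          (QuotientGroup.eq_one_iff c).mpr hcK
        rw [map_mul (QuotientGroup.mk' (pPrimeCore p ↥N)) _ c⁻¹,
          map_mul (QuotientGroup.mk' (pPrimeCore p ↥N)) c, map_inv, hc1, one_mul, inv_one, mul_one]
        exact hl' ⟨(x : G), hxN⟩ x.2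
      have h3 := congrArg (Subtype.val : ↥N → G) (hπR _ _ (hjR _) hx1 heq)
      have e2 : ((c * (n0 * ⟨(x : G), hxN⟩ * n0⁻¹) * c⁻¹ : ↥N) : G) =
          ((c * n0 : ↥N) : G) * (x : G) * ((c * n0 : ↥N) : G)⁻¹ := by
        simp only [Subgroup.coe_mul, Subgroup.coe_inv]
        group
      rw [← e2]
      exact h3
  · -- the centralizer of the `p`-core
    apply centralizer_pCore_le (R0.mapSurjective (QuotientGroup.mk'_surjective (pPrimeCore p ↥N)))
      (Helper23.pPrimeCore_quotient_pPrimeCore p)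
    rintro y ⟨hyT, hyC⟩
    have hyT' : y ∈ ((QuotientGroup.mk' (pPrimeCore p ↥N)).comp (Subgroup.inclusion hTN)).range := by
      rw [← hT']; exact hyT
    obtain ⟨t, rfl⟩ := hyT'
    have hQn : (Q.subgroupOf N).Normal := Subgroup.normal_subgroupOf_of_le_normalizer hQN
    have hQp : IsPGroup p (Q.subgroupOf N) :=
      (hTp.to_le hQT).comap_of_injective _ (Subgroup.subtype_injective N)
    have hQ1 : (Q.subgroupOf N).map (QuotientGroup.mk' (pPrimeCore p ↥N)) ≤
        pCore p (↥N ⧸ pPrimeCore p ↥N) :=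
      Helper23.le_pCore (hQn.map _ (QuotientGroup.mk'_surjective _)) (hQp.map _)
    have htC : (t : G) ∈ Subgroup.centralizer (Q : Set G) := by
      rw [Subgroup.mem_centralizer_iff]
      intro q hq
      have hqN : q ∈ N := hTN (hQT hq)
      have hq' : (⟨q, hqN⟩ : ↥N) ∈ Q.subgroupOf N := Subgroup.mem_subgroupOf.mpr hq
      have hcomm := Subgroup.mem_centralizer_iff.mp hyC _ (hQ1 ⟨_, hq', rfl⟩)
      have hcomm' : (QuotientGroup.mk' (pPrimeCore p ↥N)) ((Subgroup.inclusion hTN t) * ⟨q, hqN⟩) =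
          (QuotientGroup.mk' (pPrimeCore p ↥N)) (⟨q, hqN⟩ * (Subgroup.inclusion hTN t)) := by
        rw [map_mul, map_mul]
        exact hcomm.symm
      have hw : ((Subgroup.inclusion hTN t) * ⟨q, hqN⟩)⁻¹ * (⟨q, hqN⟩ * (Subgroup.inclusion hTN t)) ∈
          pPrimeCore p ↥N := QuotientGroup.eq.mp hcomm'
      have hwQ : ((Subgroup.inclusion hTN t) * ⟨q, hqN⟩)⁻¹ * (⟨q, hqN⟩ * (Subgroup.inclusion hTN t)) ∈
          Q.subgroupOf N := by
        have e3 : ((Subgroup.inclusion hTN t) * ⟨q, hqN⟩)⁻¹ * (⟨q, hqN⟩ * (Subgroup.inclusion hTN t)) =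
            (⟨q, hqN⟩ : ↥N)⁻¹ * ((Subgroup.inclusion hTN t)⁻¹ * ⟨q, hqN⟩ * (Subgroup.inclusion hTN t)⁻¹⁻¹) := by
          group
        rw [e3]
        exact (Q.subgroupOf N).mul_mem ((Q.subgroupOf N).inv_mem hq') (hQn.conj_mem _ hq' _)
      have hone := eq_one_of_mem_pgroup_coprime hQp hK hwQ hw
      have h4 : (Subgroup.inclusion hTN t) * ⟨q, hqN⟩ = ⟨q, hqN⟩ * (Subgroup.inclusion hTN t) :=
        inv_mul_eq_one.mp hone
      have h5 := congrArg (Subtype.val : ↥N → G) h4
      exact h5.symm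
    have htQ : (t : G) ∈ Q := hCQ ⟨t.2, htC⟩
    apply hQ1
    exact ⟨Subgroup.inclusion hTN t, Subgroup.mem_subgroupOf.mpr htQ, rfl⟩

end Model

section Good

variable {G : Type u} [Group G] [Finite G] {p : ℕ} [Fact p.Prime]

/-- Qd(p)-data can be conjugated into a Sylow subgroup `P` so that `N_P(V)` is a Sylow subgroup of `N_G(V)`. -/
theorem exists_good_data (P : Sylow p G) (h : QdData p G) :
    ∃ (V : Subgroup G) (e : G → Fin 2 → ZMod p), IsQdData p V e ⊤ ∧ V ≤ (P : Subgroup G) ∧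
      Nat.card ((P : Subgroup G) ⊓ Subgroup.normalizer (V : Set G) : Subgroup G) =
        p ^ (Nat.card (Subgroup.normalizer (V : Set G))).factorization p := by
  obtain ⟨V0, e0, hd0⟩ := h
  obtain ⟨g1, hg1⟩ := exists_conj_le_sylow P hd0.1
  obtain ⟨g2, hg2P, hg2card⟩ := exists_conj_full P (fun A => Subgroup.normalizer (A : Set G))
    normalizer_conjBy (fun A => le_rfl) hg1
  exact ⟨_, _, (((hd0.conj g1).mono le_top).conj g2).mono le_top, hg2P, hg2card⟩

/-- With `D = C_P(V)` a Sylow subgroup of `C_G(V)`, the acting elements can be taken in `N_G(V D)`. -/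
theorem data_in_normalizer (P : Sylow p G) {V : Subgroup G} {e : G → Fin 2 → ZMod p}
    (hd : IsQdData p V e ⊤)
    (hD : Nat.card ((P : Subgroup G) ⊓ Subgroup.centralizer (V : Set G) : Subgroup G) =
      p ^ (Nat.card (Subgroup.centralizer (V : Set G))).factorization p) :
    IsQdData p V e (Subgroup.normalizer
      ((V ⊔ ((P : Subgroup G) ⊓ Subgroup.centralizer (V : Set G)) : Subgroup G) : Set G)) := by
  obtain ⟨h1, h2, h3, h4⟩ := hd
  refine ⟨h1, h2, h3, fun A => ?_⟩
  obtain ⟨h, -, hh⟩ := h4 A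
  have hhN : h ∈ Subgroup.normalizer (V : Set G) :=
    Subgroup.mem_normalizer_fintype (fun n hn => (hh n hn).1)
  have hhNC := normalizer_le_normalizer_centralizer V hhN
  have hTp : IsPGroup p (conjBy ((P : Subgroup G) ⊓ Subgroup.centralizer (V : Set G)) h) :=
    (P.isPGroup'.to_le inf_le_left).map _
  have hTH : conjBy ((P : Subgroup G) ⊓ Subgroup.centralizer (V : Set G)) h ≤
      Subgroup.centralizer (V : Set G) := by
    rintro _ ⟨d, hd, rfl⟩
    exact (Subgroup.mem_normalizer_iff.mp hhNC d).mp hd.2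
  obtain ⟨c, hc, hcD⟩ := exists_conj_le_of_card (p := p) (K := (P : Subgroup G) ⊓ Subgroup.centralizer (V : Set G))
    (H := Subgroup.centralizer (V : Set G)) inf_le_right hD hTp hTH
  have hcv : ∀ v ∈ V, c * h * v * (c * h)⁻¹ = h * v * h⁻¹ := by
    intro v hv
    have h5 := Subgroup.mem_centralizer_iff.mp hc _ (hh v hv).1
    have e1 : c * h * v * (c * h)⁻¹ = c * (h * v * h⁻¹) * c⁻¹ := by group
    rw [e1, ← h5, mul_inv_cancel_right]
  refine ⟨c * h, ?_, fun v hv => ?_⟩
  · apply Subgroup.mem_normalizer_fintype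
    have hle : V ⊔ ((P : Subgroup G) ⊓ Subgroup.centralizer (V : Set G)) ≤
        (V ⊔ ((P : Subgroup G) ⊓ Subgroup.centralizer (V : Set G))).comap (MulAut.conj (c * h)).toMonoidHom := by
      apply sup_le
      · intro v hv
        show c * h * v * (c * h)⁻¹ ∈ V ⊔ ((P : Subgroup G) ⊓ Subgroup.centralizer (V : Set G))
        rw [hcv v hv]
        exact (le_sup_left : V ≤ _) (hh v hv).1
      · intro d hd
        show c * h * d * (c * h)⁻¹ ∈ V ⊔ ((P : Subgroup G) ⊓ Subgroup.centralizer (V : Set G))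
        have e1 : c * h * d * (c * h)⁻¹ = c * (h * d * h⁻¹) * c⁻¹ := by group
        rw [e1]
        exact (le_sup_right : _ ≤ V ⊔ ((P : Subgroup G) ⊓ Subgroup.centralizer (V : Set G)))
          (hcD ⟨_, ⟨d, hd, rfl⟩, rfl⟩)
    intro n hn
    exact hle hn
  · rw [hcv v hv]
    exact hh v hv

/-- `Q = V · C_P(V)` contains every `p`-subgroup of its centralizer, and so do its conjugates. -/
theorem centric_sup (P : Sylow p G) (V : Subgroup G)
    (hD : Nat.card ((P : Subgroup G) ⊓ Subgroup.centralizer (V : Set G) : Subgroup G) =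
      p ^ (Nat.card (Subgroup.centralizer (V : Set G))).factorization p)
    (g : G) (B : Subgroup G) (hB : IsPGroup p B)
    (hBC : B ≤ Subgroup.centralizer
      ((conjBy (V ⊔ ((P : Subgroup G) ⊓ Subgroup.centralizer (V : Set G))) g : Subgroup G) : Set G)) :
    B ≤ conjBy (V ⊔ ((P : Subgroup G) ⊓ Subgroup.centralizer (V : Set G))) g := by
  obtain ⟨D, hDdef⟩ : ∃ D : Subgroup G, D = (P : Subgroup G) ⊓ Subgroup.centralizer (V : Set G) := ⟨_, rfl⟩
  rw [← hDdef] at hD hBC ⊢
  have hDp : IsPGroup p D := by rw [hDdef]; exact P.isPGroup'.to_le inf_le_left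
  have hDV : D ≤ Subgroup.centralizer (V : Set G) := by rw [hDdef]; exact inf_le_right
  -- the base case
  have base : ∀ B' : Subgroup G, IsPGroup p B' →
      B' ≤ Subgroup.centralizer ((V ⊔ D : Subgroup G) : Set G) → B' ≤ V ⊔ D := by
    intro B' hB' hB'C
    have hB'V : B' ≤ Subgroup.centralizer (V : Set G) :=
      hB'C.trans (Subgroup.centralizer_le (le_sup_left : V ≤ V ⊔ D))
    have hB'D : B' ≤ Subgroup.centralizer (D : Set G) :=
      hB'C.trans (Subgroup.centralizer_le (le_sup_right : D ≤ V ⊔ D))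
    have hsup : IsPGroup p (B' ⊔ D : Subgroup G) :=
      IsPGroup.to_sup_of_normal_right' hB' hDp (hB'D.trans (Subgroup.centralizer_le_normalizer _))
    have hcard := card_le_of_isPGroup hsup (sup_le hB'V hDV)
    rw [← hD] at hcard
    have heq : D = B' ⊔ D := Subgroup.eq_of_le_of_card_ge le_sup_right hcard
    calc B' ≤ B' ⊔ D := le_sup_left
      _ = D := heq.symm
      _ ≤ V ⊔ D := le_sup_right
  rw [centralizer_conjBy] at hBC
  have h1 : conjBy B g⁻¹ ≤ V ⊔ D := by
    apply base _ (hB.map _)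
    rintro _ ⟨b, hb, rfl⟩
    have := mem_conjBy.mp (hBC hb)
    show g⁻¹ * b * g⁻¹⁻¹ ∈ Subgroup.centralizer ((V ⊔ D : Subgroup G) : Set G)
    rw [inv_inv]
    exact this
  intro b hb
  rw [mem_conjBy]
  have h2 : g⁻¹ * b * g⁻¹⁻¹ ∈ V ⊔ D := h1 ⟨b, hb, rfl⟩
  rw [inv_inv] at h2
  exact h2

end Good

section Main

variable {G : Type u} [Group G] [Finite G] {p : ℕ} [Fact p.Prime]

attribute [local instance] pPrimeCoreNormal

omit [Finite G] [Fact p.Prime] in
theorem conjBy_conjBy' (A : Subgroup G) (g g' : G) : conjBy (conjBy A g) g' = conjBy A (g' * g) := by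
  ext x
  rw [mem_conjBy, mem_conjBy, mem_conjBy]
  have e1 : g⁻¹ * (g'⁻¹ * x * g') * g = (g' * g)⁻¹ * x * (g' * g) := by group
  rw [e1]

/-- If `Qd(p)` is involved in `G`, the fusion system of `G` on a Sylow `p`-subgroup is not `Qd(p)`-free. -/
theorem not_sectionFree_of_involves (hp : p ≠ 2) (P : Sylow p G)
    (hinv : Cfsg.Involves (Cfsg.qd p) G) :
    ¬ (groupFusionSystem (P : Subgroup G)).IsSectionFree p (Cfsg.qd p) := by
  intro hfree
  obtain ⟨V, e, hd, hVP, hVcard⟩ := exists_good_data P (qdData_of_involves hinv)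
  have hD := centralizer_sylow_of_normalizer P hVcard
  have hdQ := data_in_normalizer P hd hD
  have hcen := centric_sup P V hD
  obtain ⟨Q, hQdef⟩ : ∃ Q : Subgroup G,
      Q = V ⊔ ((P : Subgroup G) ⊓ Subgroup.centralizer (V : Set G)) := ⟨_, rfl⟩
  rw [← hQdef] at hdQ hcen
  have hQP : Q ≤ (P : Subgroup G) := by rw [hQdef]; exact sup_le hVP inf_le_left
  have hVQ : V ≤ Q := by rw [hQdef]; exact le_sup_left
  obtain ⟨g, hgP, hgcard⟩ := exists_conj_full P (fun A => Subgroup.normalizer (A : Set G))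
    normalizer_conjBy (fun A => le_rfl) hQP
  have hgcard' : Nat.card ((P : Subgroup G) ⊓ Subgroup.normalizer ((conjBy Q g : Subgroup G) : Set G) :
      Subgroup G) = p ^ (Nat.card (Subgroup.normalizer ((conjBy Q g : Subgroup G) : Set G))).factorization p :=
    hgcard
  have hfn := isFullyNormalized_of_card P hgP hgcard'
  have hcentric : (groupFusionSystem (P : Subgroup G)).IsCentric (conjBy Q g) := by
    apply isCentric_of_forall P hgP
    intro g' B hB hBC
    rw [conjBy_conjBy'] at hBC ⊢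
    exact hcen (g' * g) B hB hBC
  have hNS := isNormalizerSystem_group (P : Subgroup G) (conjBy Q g) hgP
  have hTp : IsPGroup p (FusionSystem.normalizerIn (P : Subgroup G) (conjBy Q g)) :=
    P.isPGroup'.to_le inf_le_left
  have hmodel := model_of_centric (p := p)
    (N := Subgroup.normalizer ((conjBy Q g : Subgroup G) : Set G))
    (T := FusionSystem.normalizerIn (P : Subgroup G) (conjBy Q g)) (Q := conjBy Q g)
    inf_le_right hTp hgcard' (le_inf hgP Subgroup.le_normalizer) le_rfl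
    (hcen g _ (hTp.to_le inf_le_left) inf_le_right)
  have hd1 : IsQdData p (conjBy V g) (fun x => e (g⁻¹ * x * g))
      (Subgroup.normalizer ((conjBy Q g : Subgroup G) : Set G)) := by
    have h1 := hdQ.conj g
    rw [← normalizer_conjBy] at h1
    exact h1
  have hVN : conjBy V g ≤ Subgroup.normalizer ((conjBy Q g : Subgroup G) : Set G) :=
    (Subgroup.map_mono hVQ).trans Subgroup.le_normalizer
  have hd2 := IsQdData.to_subgroup hVN hd1
  have hd3 := QdData.quot_coprime
    (pPrimeCore p ↥(Subgroup.normalizer ((conjBy Q g : Subgroup G) : Set G)))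
    (Helper23.pPrimeCore_coprime p) hd2
  exact hfree (conjBy Q g) hfn hcentric _ hNS _ _ hmodel (involves_qd_of_data hp hd3)

/-- If `Qd(p)` is not involved in `G`, the fusion system of `G` on a Sylow `p`-subgroup is `Qd(p)`-free. -/
theorem sectionFree_of_not_involves (hp : p ≠ 2) (P : Sylow p G)
    (hG : ¬ Cfsg.Involves (Cfsg.qd p) G) :
    (groupFusionSystem (P : Subgroup G)).IsSectionFree p (Cfsg.qd p) := by
  intro Q hfn hcen N hNS L _ ι hmodel hinvL
  obtain ⟨hfin, ⟨hinj, hreal⟩, ⟨T', hT'⟩, -⟩ := hmodel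
  haveI := hfin
  obtain ⟨V, e, hd⟩ := qdData_of_involves hinvL
  obtain ⟨l, hl⟩ := exists_conj_le_sylow T' hd.1
  have hd' := (hd.conj l).mono le_top
  have hV' : conjBy V l ≤ ι.range := by rw [← hT']; exact hl
  apply hG
  apply involves_qd_of_data hp
  apply qdData_of_fusion (FusionSystem.normalizerIn (P : Subgroup G) Q) ι hd' hV' hinj
  intro l0 hl0
  obtain ⟨A, hAdef⟩ : ∃ A : Subgroup G, A = ((conjBy V l).comap ι).map
      (FusionSystem.normalizerIn (P : Subgroup G) Q).subtype := ⟨_, rfl⟩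
  have hA : A ≤ FusionSystem.normalizerIn (P : Subgroup G) Q := by
    rw [hAdef]; exact Subgroup.map_subtype_le _
  have hAmem : ∀ x : A, ι (Subgroup.inclusion hA x) ∈ conjBy V l := by
    intro x
    have hx : (x : G) ∈ ((conjBy V l).comap ι).map
        (FusionSystem.normalizerIn (P : Subgroup G) Q).subtype := hAdef ▸ x.2
    obtain ⟨x0, hx0, hxx⟩ := hx
    have e1 : Subgroup.inclusion hA x = x0 := Subtype.ext hxx.symm
    rw [e1]; exact hx0
  have hmem : ∀ x : A,
      ((MulAut.conj l0).toMonoidHom.comp (ι.comp (Subgroup.inclusion hA))) x ∈ ι.range :=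
    fun x => hV' (hl0 _ (hAmem x))
  obtain ⟨φ, hφdef⟩ : ∃ φ : A →* G, φ = (FusionSystem.normalizerIn (P : Subgroup G) Q).subtype.comp
      ((MonoidHom.ofInjective hinj).symm.toMonoidHom.comp
        (((MulAut.conj l0).toMonoidHom.comp (ι.comp (Subgroup.inclusion hA))).codRestrict ι.range hmem)) :=
    ⟨_, rfl⟩
  have hφT : ∀ x : A, φ x ∈ FusionSystem.normalizerIn (P : Subgroup G) Q := by
    intro x; rw [hφdef]; exact Subtype.property _
  have hkey : ∀ x : A, ι ⟨φ x, hφT x⟩ = l0 * ι ⟨x, hA x.2⟩ * l0⁻¹ := by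
    intro x
    have h1 := MonoidHom.apply_ofInjective_symm hinj
      ((((MulAut.conj l0).toMonoidHom.comp (ι.comp (Subgroup.inclusion hA))).codRestrict ι.range hmem) x)
    subst hφdef
    exact h1
  have hφN : φ ∈ N.Hom A := (hreal A hA φ hφT).mpr ⟨l0, hkey⟩
  rw [hNS A] at hφN
  obtain ⟨-, -, g, hg⟩ := hφN.1
  refine ⟨g, fun x hx => ?_⟩
  have hxA : (x : G) ∈ A := by rw [hAdef]; exact ⟨x, hx, rfl⟩
  have e1 : g * (x : G) * g⁻¹ = φ ⟨x, hxA⟩ := (hg ⟨x, hxA⟩).symm
  have hxT : g * (x : G) * g⁻¹ ∈ FusionSystem.normalizerIn (P : Subgroup G) Q := by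
    rw [e1]; exact hφT ⟨x, hxA⟩
  refine ⟨hxT, ?_⟩
  have e2 : (⟨g * (x : G) * g⁻¹, hxT⟩ : FusionSystem.normalizerIn (P : Subgroup G) Q) =
      ⟨φ ⟨x, hxA⟩, hφT ⟨x, hxA⟩⟩ := Subtype.ext e1
  rw [e2, hkey]

end Main

end Cfsg.Agent.Helper10
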