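import Mathlib
import Cfsg.Prelude.Def_ConjugacyFunctors
import Cfsg.Prelude.Def_LocalEven
import Cfsg.Agent.Helper10.QdStruct
import Cfsg.Agent.Helper10.KSeq
import Cfsg.Agent.Helper10.KInf2
import Cfsg.Agent.Helper10.Sec

/-!
# `Qd(p)` is a counterexample to control of strong fusion by characteristic subgroups

* `normal_of_csf`: if `N_X(U)` controls strong fusion and a normal `p`-subgroup `V` has
  `C_X(V) ≤ N_X(U)`, then `U` is normal in `X`.
* `not_csf_kInfLower`: abstract criterion for the lower K-infinity subgroup.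
* `exists_sylow_not_csf`: for `X` isomorphic (via `f`) to `Qd(p)`, some Sylow `p`-subgroup `T` has
  `K_∞(T)` not controlling strong fusion.
-/

set_option autoImplicit false

namespace Cfsg.Agent.Helper10

open Cfsg

universe u

section Abstract

variable {X : Type u} [Group X] [Finite X] {p : ℕ} [Fact p.Prime]

/-- If `N_X(U)` controls strong fusion and a normal `p`-subgroup `V` has `C_X(V) ≤ N_X(U)`, then `U` is
normal in `X`. -/
theorem normal_of_csf {U : Subgroup X} (h : ControlsStrongFusion p U) (V : Subgroup X) [hVn : V.Normal]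
    (hVp : IsPGroup p V)
    (hCV : Subgroup.centralizer (V : Set X) ≤ Subgroup.normalizer (U : Set X)) : U.Normal := by
  obtain ⟨T', -, hctl⟩ := h
  have hVT' : V ≤ T' := Cfsg.Agent.Helper23.le_sylow_of_normal hVn hVp T'
  have key : ∀ g : X, g ∈ Subgroup.normalizer (U : Set X) := by
    intro g
    obtain ⟨x, hx, hxa⟩ := (hctl (V : Set X) hVT').2 g (by
      rintro _ ⟨a, ha, rfl⟩
      exact hVT' (hVn.conj_mem a ha g))
    have h1 : x⁻¹ * g ∈ Subgroup.centralizer (V : Set X) := by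
      rw [Subgroup.mem_centralizer_iff]
      intro a ha
      have h2 := hxa a ha
      have h3 : g * a = x * a * x⁻¹ * g := by rw [← h2]; group
      calc a * (x⁻¹ * g) = x⁻¹ * (x * a * x⁻¹ * g) := by group
        _ = x⁻¹ * (g * a) := by rw [h3]
        _ = x⁻¹ * g * a := by group
    have h3 := Subgroup.mul_mem _ hx (hCV h1)
    simpa using h3
  exact Subgroup.normalizer_eq_top_iff.mp (by rw [eq_top_iff]; intro g _; exact key g)

/-- Abstract criterion: the lower K-infinity subgroup of a Sylow subgroup `T` does not control strong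
fusion if `T` has an abelian normal subgroup `B` lying in no normal `p`-subgroup, and some normal
`p`-subgroup `V` contains its centralizer. -/
theorem not_csf_kInfLower (V : Subgroup X) [hVn : V.Normal] (hVp : IsPGroup p V)
    (hCV : Subgroup.centralizer (V : Set X) ≤ V)
    (T : Sylow p X) (B : Subgroup X) (hBT : B ≤ T) (hBc : ∀ x ∈ B, ∀ y ∈ B, x * y = y * x)
    (hTB : (T : Subgroup X) ≤ Subgroup.normalizer (B : Set X))
    (hB : ∀ N : Subgroup X, N.Normal → IsPGroup p N → ¬ B ≤ N) :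
    ¬ ControlsStrongFusion p (inducedFunctor kInfLower (T : Subgroup X)) := by
  intro h
  have hVT : V ≤ T := Cfsg.Agent.Helper23.le_sylow_of_normal hVn hVp T
  have hTN : (T : Subgroup X) ≤
      Subgroup.normalizer (inducedFunctor kInfLower (T : Subgroup X) : Set X) :=
    Subgroup.le_normalizer.trans
      (normalizer_le_normalizer_ind (fun (Q : Type u) [Group Q] => kInfLower Q)
        isCharPFunctor_kInfLower (T : Subgroup X) T.2)
  have hU : (inducedFunctor kInfLower (T : Subgroup X)).Normal :=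
    normal_of_csf h V hVp (hCV.trans (hVT.trans hTN))
  refine hB _ hU (T.2.to_le (ind_le _ _)) ?_
  intro b hb
  have hB' : (B.subgroupOf (T : Subgroup X)).Normal := ⟨fun n hn g => by
    have h1 := hTB g.2
    rw [Subgroup.mem_normalizer_iff] at h1
    exact (h1 _).mp hn⟩
  have hBc' : IsMulCommutative ↥(B.subgroupOf (T : Subgroup X)) :=
    ⟨⟨fun x y => Subtype.ext (Subtype.ext (hBc _ x.2 _ y.2))⟩⟩
  have h1 : B.subgroupOf (T : Subgroup X) ∈ kLowerStarFamily (kSeqOdd ↥(T : Subgroup X) 0) :=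
    abelian_normal_mem_kLower _ hBc' _
  have h2 : B.subgroupOf (T : Subgroup X) ≤ kInfLower ↥(T : Subgroup X) :=
    (le_sSup h1).trans (le_iSup (kSeqEven ↥(T : Subgroup X)) 0)
  exact ⟨⟨b, hBT hb⟩, h2 (Subgroup.mem_subgroupOf.mpr hb), rfl⟩

end Abstract

section Concrete

variable {X : Type u} [Group X] [Finite X] {p : ℕ} [Fact p.Prime]
  (f : X →* Matrix.SpecialLinearGroup (Fin 3) (ZMod p))

theorem qdV_normal (hrange : ∀ M, M ∈ Cfsg.qd p ↔ ∃ x, f x = M) : ((vS p).comap f).Normal :=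
  ⟨fun n hn g => by
    show f (g * n * g⁻¹) ∈ vS p
    rw [map_mul, map_mul, map_inv]
    exact qd_conj_vS ((hrange _).2 ⟨g, rfl⟩) hn⟩

theorem qdV_isPGroup (hinj : Function.Injective f) : IsPGroup p ((vS p).comap f) := by
  rintro ⟨x, hx⟩
  refine ⟨1, Subtype.ext (hinj ?_)⟩
  show f (x ^ p ^ 1) = f 1
  rw [pow_one, map_pow, map_one]
  exact vS_pow hx

theorem qdV_centralizer (hrange : ∀ M, M ∈ Cfsg.qd p ↔ ∃ x, f x = M) :
    Subgroup.centralizer (((vS p).comap f : Subgroup X) : Set X) ≤ (vS p).comap f := by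
  intro x hx
  show f x ∈ vS p
  apply mem_vS_of_comm ((hrange _).2 ⟨x, rfl⟩)
  intro t
  obtain ⟨v, hv⟩ := (hrange (affSL 1 t)).1 (affSL_mem_qd _ _)
  have hvV : v ∈ (vS p).comap f := by
    show f v ∈ vS p
    rw [hv]
    exact ⟨t, rfl⟩
  have h1 := Subgroup.mem_centralizer_iff.mp hx v hvV
  rw [← hv, ← map_mul, ← map_mul, h1]

theorem card_qdT (hinj : Function.Injective f) (hrange : ∀ M, M ∈ Cfsg.qd p ↔ ∃ x, f x = M) :
    Nat.card ((tS p).comap f) = p ^ 3 := by
  rw [← card_tS]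
  apply Nat.card_eq_of_bijective (fun x : (tS p).comap f => (⟨f x.1, x.2⟩ : tS p))
  constructor
  · intro x y h
    exact Subtype.ext (hinj (congrArg Subtype.val h))
  · rintro ⟨M, hM⟩
    obtain ⟨x, rfl⟩ := (hrange M).1 (tS_le_qd hM)
    exact ⟨⟨x, hM⟩, rfl⟩

/-- The order of a `p`-subgroup of a group embedded in `SL₃(p)` is at most `p³`. -/
theorem card_le_of_embed (hinj : Function.Injective f) (P : Subgroup X) (hP : IsPGroup p P) :
    Nat.card P ≤ p ^ 3 := by
  have hp' : p.Prime := Fact.out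
  haveI : NeZero p := ⟨hp'.ne_zero⟩
  obtain ⟨k, hk⟩ := IsPGroup.iff_card.mp hP
  have hGL : Nat.card (Matrix.GeneralLinearGroup (Fin 3) (ZMod p))
      = (p ^ 3 - 1) * (p ^ 3 - p) * (p ^ 3 - p ^ 2) := by
    rw [Matrix.card_GL_field, ZMod.card, Fin.prod_univ_three]
    simp
  have hfac : (p ^ 3 - 1) * (p ^ 3 - p) * (p ^ 3 - p ^ 2)
      = p ^ 3 * ((p ^ 3 - 1) * (p ^ 2 - 1) * (p - 1)) := by
    have hB : p ^ 3 - p = p * (p ^ 2 - 1) := by
      rw [mul_tsub, mul_one]; congr 1; ring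
    have hC : p ^ 3 - p ^ 2 = p ^ 2 * (p - 1) := by
      rw [mul_tsub, mul_one]; congr 1
    rw [hB, hC]; ring
  have hnd : ¬ p ∣ (p ^ 3 - 1) * (p ^ 2 - 1) * (p - 1) := by
    have aux : ∀ j : ℕ, 1 ≤ j → ¬ p ∣ p ^ j - 1 := by
      intro j hj hd
      have h1 : p ∣ p ^ j := dvd_pow_self p (by omega)
      have h4 : p ^ j - 1 + 1 = p ^ j := Nat.sub_add_cancel (Nat.one_le_pow _ _ hp'.pos)
      have h2 : p ∣ p ^ j - 1 + 1 := by rw [h4]; exact h1
      have h3 : p ∣ 1 := (Nat.dvd_add_right hd).mp h2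
      exact hp'.one_lt.ne' (Nat.dvd_one.mp h3)
    intro hd
    rcases (Nat.Prime.dvd_mul hp').mp hd with h | h
    · rcases (Nat.Prime.dvd_mul hp').mp h with h | h
      · exact aux 3 (by norm_num) h
      · exact aux 2 (by norm_num) h
    · exact aux 1 (by norm_num) (by simpa using h)
  have hdvdGL : Nat.card ↥P ∣ Nat.card (Matrix.GeneralLinearGroup (Fin 3) (ZMod p)) := by
    have h1 : Nat.card ↥P ∣ Nat.card X := Subgroup.card_subgroup_dvd_card _
    have h2 : Nat.card X ∣ Nat.card (Matrix.SpecialLinearGroup (Fin 3) (ZMod p)) :=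
      Subgroup.card_dvd_of_injective f hinj
    have h3 : Nat.card (Matrix.SpecialLinearGroup (Fin 3) (ZMod p)) ∣
        Nat.card (Matrix.GeneralLinearGroup (Fin 3) (ZMod p)) :=
      Subgroup.card_dvd_of_injective Matrix.SpecialLinearGroup.toGL
        Matrix.SpecialLinearGroup.toGL_injective
    exact h1.trans (h2.trans h3)
  have hk3 : k ≤ 3 := by
    by_contra hk4
    push Not at hk4
    have h1 : p ^ (3 + 1) ∣ p ^ k := pow_dvd_pow p hk4
    rw [← hk] at h1
    have h2 := h1.trans hdvdGL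
    rw [hGL, hfac, pow_succ] at h2
    exact hnd (Nat.dvd_of_mul_dvd_mul_left (pow_pos hp'.pos 3) h2)
  rw [hk]
  exact Nat.pow_le_pow_right hp'.pos hk3

/-- The preimage of the unitriangular group is a Sylow `p`-subgroup. -/
theorem exists_sylow_eq_qdT (hinj : Function.Injective f)
    (hrange : ∀ M, M ∈ Cfsg.qd p ↔ ∃ x, f x = M) :
    ∃ T : Sylow p X, (T : Subgroup X) = (tS p).comap f := by
  have hTp : IsPGroup p ((tS p).comap f) := IsPGroup.of_card (card_qdT f hinj hrange)
  obtain ⟨Q, hQ⟩ := hTp.exists_le_sylow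
  refine ⟨Q, (Subgroup.eq_of_le_of_card_ge hQ ?_).symm⟩
  rw [card_qdT f hinj hrange]
  exact card_le_of_embed f hinj Q Q.2

/-- For `X ≅ Qd(p)`, some Sylow `p`-subgroup `T` has `K_∞(T)` not controlling strong fusion. -/
theorem exists_sylow_not_csf (hinj : Function.Injective f)
    (hrange : ∀ M, M ∈ Cfsg.qd p ↔ ∃ x, f x = M) :
    ∃ T : Sylow p X, ¬ ControlsStrongFusion p (inducedFunctor kInfLower (T : Subgroup X)) := by
  obtain ⟨T, hT⟩ := exists_sylow_eq_qdT f hinj hrange
  haveI hVn := qdV_normal f hrange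
  refine ⟨T, not_csf_kInfLower ((vS p).comap f) (qdV_isPGroup f hinj) (qdV_centralizer f hrange) T
    ((bS p).comap f) ?_ ?_ ?_ ?_⟩
  · rw [hT]
    exact Subgroup.comap_mono bS_le_tS
  · intro x hx y hy
    apply hinj
    rw [map_mul, map_mul]
    exact bS_comm hx hy
  · rw [hT]
    intro g hg
    have hc : ∀ g' : X, f g' ∈ tS p → ∀ x : X, f x ∈ bS p → f (g' * x * g'⁻¹) ∈ bS p := by
      intro g' hg' x hx
      rw [map_mul, map_mul, map_inv]
      exact tS_conj_bS hg' hx
    rw [Subgroup.mem_normalizer_iff]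
    intro x
    constructor
    · intro hx
      exact hc g hg x hx
    · intro hx
      have h1 := hc g⁻¹ (by rw [map_inv]; exact Subgroup.inv_mem _ hg) _ hx
      have h2 : g⁻¹ * (g * x * g⁻¹) * g⁻¹⁻¹ = x := by group
      rw [h2] at h1
      exact h1
  · intro N hN hNp hBN
    obtain ⟨u, hu⟩ := (hrange (affSL (uMat 1) ![0, 0])).1 (affSL_mem_qd _ _)
    obtain ⟨w, hw⟩ := (hrange (affSL (lMat p) 0)).1 (affSL_mem_qd _ _)
    have huB : u ∈ (bS p).comap f := by
      show f u ∈ bS p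
      rw [hu]
      exact ⟨1, 0, rfl⟩
    have h1 : w * u * w⁻¹ ∈ N := hN.conj_mem u (hBN huB) w
    have h2 : w * u * w⁻¹ ∈ (T : Subgroup X) := Cfsg.Agent.Helper23.le_sylow_of_normal hN hNp T h1
    rw [hT] at h2
    have h3 : f (w * u * w⁻¹) ∈ tS p := h2
    rw [map_mul, map_mul, map_inv, hu, hw] at h3
    exact lMat_conj_not_mem h3

end Concrete

end Cfsg.Agent.Helper10
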