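import Mathlib
import Cfsg.Prelude.Def_ConjugacyFunctors
import Cfsg.Prelude.Def_LocalEven
import Cfsg.Prelude.Def_PLocal
import Cfsg.Agent.Helper10.QdStruct2
import Cfsg.Agent.Helper26.Involves
import Cfsg.Agent.S1987

/-!
# `Qd(p)`-free ⟺ `K_∞` controls strong fusion in all sections (modulo the stability theorem)

`qdfree_iff_kinf`: the equivalence, given the implication "`Qd(p)`-free ⟹ every section is p-stable in
the normalizer form" (Glauberman, via Dickson) as a hypothesis.
-/

set_option autoImplicit false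

namespace Cfsg.Agent.Helper10

open Cfsg

universe u

/-- A section of a section is a section. -/
theorem involves_of_involves_quot {G : Type u} [Group G] {H : Type*} [Group H] (K R : Subgroup G)
    [hR : (R.subgroupOf K).Normal] (h : Cfsg.Involves H (↥K ⧸ R.subgroupOf K)) : Cfsg.Involves H G := by
  obtain ⟨K', f', hf'⟩ := Cfsg.Agent.Helper26.exists_surj_of_involves h
  exact Cfsg.Agent.Helper26.involves_of_span
    (K.subtype.comp (K'.comap (QuotientGroup.mk' (R.subgroupOf K))).subtype)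
    (K.subtype_injective.comp (Subgroup.subtype_injective _))
    (f'.comp ((QuotientGroup.mk' (R.subgroupOf K)).subgroupComap K'))
    (hf'.comp ((QuotientGroup.mk' (R.subgroupOf K)).subgroupComap_surjective_of_surjective K'
      (QuotientGroup.mk'_surjective _)))

/-- If `K_∞(T)` controls strong fusion in every section, then `Qd(p)` is not involved. -/
theorem not_involves_of_kinf {G : Type u} [Group G] [Finite G] {p : ℕ} [Fact p.Prime]
    (h : ∀ (K R : Subgroup G) [hR : (R.subgroupOf K).Normal], ∀ T : Sylow p (↥K ⧸ R.subgroupOf K),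
      Cfsg.ControlsStrongFusion p (Cfsg.inducedFunctor (G := (↥K ⧸ R.subgroupOf K)) Cfsg.kInfLower
        (T : Subgroup (↥K ⧸ R.subgroupOf K)))) :
    ¬ Cfsg.Involves ↥(Cfsg.qd p) G := by
  intro hinv
  obtain ⟨K, R, hR, ⟨φ⟩⟩ := hinv
  obtain ⟨T, hT⟩ := exists_sylow_not_csf ((Cfsg.qd p).subtype.comp φ.toMonoidHom)
    ((Subgroup.subtype_injective _).comp φ.injective)
    (fun M => ⟨fun hM => ⟨φ.symm ⟨M, hM⟩, by simp⟩, by rintro ⟨x, rfl⟩; exact (φ x).2⟩)
  exact hT (h K R T)

theorem qdfree_iff_kinf {G : Type u} [Group G] [Finite G] {p : ℕ} [Fact p.Prime] (hp : p ≠ 2)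
    (h2795 : ∀ (X : Type u) [Group X] [Finite X], ¬ Cfsg.Involves ↥(Cfsg.qd p) X →
      ∀ (K R : Subgroup X) [hR : (R.subgroupOf K).Normal],
        Cfsg.IsNormalizerPStable p (↥K ⧸ R.subgroupOf K)) :
    ¬ Cfsg.Involves ↥(Cfsg.qd p) G ↔
      ∀ (K R : Subgroup G) [hR : (R.subgroupOf K).Normal], ∀ T : Sylow p (↥K ⧸ R.subgroupOf K),
        Cfsg.ControlsStrongFusion p (Cfsg.inducedFunctor (G := (↥K ⧸ R.subgroupOf K)) Cfsg.kInfLower
          (T : Subgroup (↥K ⧸ R.subgroupOf K))) := by
  constructor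
  · intro hG K R hR T
    have hX : ¬ Cfsg.Involves ↥(Cfsg.qd p) (↥K ⧸ R.subgroupOf K) :=
      fun hinv => hG (involves_of_involves_quot K R hinv)
    exact Cfsg.Agent.S1987.result hp (fun K' R' _ => h2795 _ hX K' R') T
  · exact not_involves_of_kinf

end Cfsg.Agent.Helper10
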