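import Mathlib
import Cfsg.Prelude.Def_CaseTheorems
import Cfsg.Agent.Helper10.CW2b

set_option autoImplicit false

namespace Cfsg.Agent.Helper10.R3

variable {X : Type*} [Group X]

/-- `Ω₁(Z(P))` as a subgroup of the ambient group. -/
def omegaZ (P : Subgroup X) : Subgroup X where
  carrier := {z | z ∈ P ∧ z * z = 1 ∧ ∀ p ∈ P, p * z = z * p}
  one_mem' := ⟨P.one_mem, by simp, fun p _ => by simp⟩
  mul_mem' := by
    rintro a b ⟨ha, ha2, hac⟩ ⟨hb, hb2, hbc⟩
    refine ⟨P.mul_mem ha hb, ?_, ?_⟩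
    · have hba : b * a = a * b := hac b hb
      calc a * b * (a * b) = a * (b * a) * b := by group
        _ = a * (a * b) * b := by rw [hba]
        _ = (a * a) * (b * b) := by group
        _ = 1 := by rw [ha2, hb2, one_mul]
    · intro p hp
      calc p * (a * b) = (p * a) * b := by group
        _ = (a * p) * b := by rw [hac p hp]
        _ = a * (p * b) := by group
        _ = a * (b * p) := by rw [hbc p hp]
        _ = a * b * p := by group
  inv_mem' := by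
    rintro a ⟨ha, ha2, hac⟩
    have hinv : a⁻¹ = a := inv_eq_of_mul_eq_one_left ha2
    rw [Set.mem_setOf_eq, hinv]; exact ⟨ha, ha2, hac⟩

theorem two_three (P : Subgroup X) (hP : IsPGroup 2 P) (w : X) (hw : w ∈ P)
    (h3 : w * w * w = 1) : w = 1 := by
  obtain ⟨k, hk⟩ := hP ⟨w, hw⟩
  have hk' : w ^ (2 ^ k) = 1 := by
    have := congrArg Subtype.val hk
    simpa using this
  have h1 : orderOf w ∣ 2 ^ k := orderOf_dvd_of_pow_eq_one hk'
  have h2 : orderOf w ∣ 3 := orderOf_dvd_of_pow_eq_one (by rw [pow_three']; exact h3)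
  have h4 : orderOf w ∣ Nat.gcd (2 ^ k) 3 := Nat.dvd_gcd h1 h2
  have hc : Nat.gcd (2 ^ k) 3 = 1 := Nat.Coprime.pow_left k (by norm_num)
  rw [hc, Nat.dvd_one] at h4
  exact orderOf_eq_one_iff.1 h4

theorem rank_le (P : Subgroup X)
    (hrank : ∀ V : Subgroup X, V ≤ P → IsMulCommutative V → Cfsg.PRankLE 2 2 V)
    (V : Subgroup X) (hVP : V ≤ P) (hcomm : ∀ a ∈ V, ∀ b ∈ V, a * b = b * a)
    (hsq : ∀ a ∈ V, a * a = 1) : Nat.card V ≤ 4 := by
  have hV : IsMulCommutative V := ⟨⟨fun a b => Subtype.ext (hcomm a a.2 b b.2)⟩⟩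
  have hT : IsMulCommutative (⊤ : Subgroup V) :=
    ⟨⟨fun a b => Subtype.ext (Subtype.ext (hcomm _ a.1.2 _ b.1.2))⟩⟩
  have h := hrank V hVP hV ⊤ hT (fun a _ => by
    apply Subtype.ext
    simp only [Subgroup.coe_pow, Subgroup.coe_one, pow_two]
    exact hsq a a.2)
  rw [Subgroup.card_top] at h
  simpa using h

theorem clos_comm (S : Set X) (hc : ∀ a ∈ S, ∀ b ∈ S, a * b = b * a) :
    ∀ a ∈ Subgroup.closure S, ∀ b ∈ Subgroup.closure S, a * b = b * a := by
  intro a ha b hb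
  have := (Subgroup.closureCommGroupOfComm hc).mul_comm ⟨a, ha⟩ ⟨b, hb⟩
  exact congrArg Subtype.val this

theorem clos_sq (S : Set X) (hc : ∀ a ∈ S, ∀ b ∈ S, a * b = b * a) (h2 : ∀ a ∈ S, a * a = 1) :
    ∀ a ∈ Subgroup.closure S, a * a = 1 := by
  have hcc := clos_comm S hc
  intro a ha
  induction ha using Subgroup.closure_induction with
  | mem x hx => exact h2 x hx
  | one => simp
  | mul x y hx hy ihx ihy =>
    have hxy := hcc x hx y hy
    calc x * y * (x * y) = x * (y * x) * y := by group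
      _ = x * (x * y) * y := by rw [← hxy]
      _ = (x * x) * (y * y) := by group
      _ = 1 := by rw [ihx, ihy, one_mul]
  | inv x hx ih =>
    calc x⁻¹ * x⁻¹ = (x * x)⁻¹ := by group
      _ = 1 := by rw [ih, inv_one]

theorem inv_in [Finite X] (P : Subgroup X)
    (hrank : ∀ V : Subgroup X, V ≤ P → IsMulCommutative V → Cfsg.PRankLE 2 2 V)
    (hE4 : Nat.card (omegaZ P) = 4) (x : X) (hx : x ∈ P) (hx2 : x * x = 1) : x ∈ omegaZ P := by
  by_contra hxE
  have hSP : ((omegaZ P : Set X) ∪ {x}) ⊆ P := by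
    rintro y (hy | hy)
    · exact hy.1
    · rw [Set.mem_singleton_iff] at hy; rw [hy]; exact hx
  have hc : ∀ a ∈ ((omegaZ P : Set X) ∪ {x}), ∀ b ∈ ((omegaZ P : Set X) ∪ {x}), a * b = b * a := by
    rintro a (ha | ha) b (hb | hb)
    · exact hb.2.2 a ha.1
    · rw [Set.mem_singleton_iff] at hb; rw [hb]; exact (ha.2.2 x hx).symm
    · rw [Set.mem_singleton_iff] at ha; rw [ha]; exact hb.2.2 x hx
    · rw [Set.mem_singleton_iff] at ha hb; rw [ha, hb]
  have h2 : ∀ a ∈ ((omegaZ P : Set X) ∪ {x}), a * a = 1 := by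
    rintro a (ha | ha)
    · exact ha.2.1
    · rw [Set.mem_singleton_iff] at ha; rw [ha]; exact hx2
  have hVP : Subgroup.closure ((omegaZ P : Set X) ∪ {x}) ≤ P := (Subgroup.closure_le P).2 hSP
  have hcard := rank_le P hrank _ hVP (clos_comm _ hc) (clos_sq _ hc h2)
  have hEV : omegaZ P ≤ Subgroup.closure ((omegaZ P : Set X) ∪ {x}) :=
    fun y hy => Subgroup.subset_closure (Or.inl hy)
  have hxV : x ∈ Subgroup.closure ((omegaZ P : Set X) ∪ {x}) :=
    Subgroup.subset_closure (Or.inr rfl)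
  have heq : omegaZ P = Subgroup.closure ((omegaZ P : Set X) ∪ {x}) :=
    Subgroup.eq_of_le_of_card_ge hEV (by rw [hE4]; exact hcard)
  exact hxE (heq ▸ hxV)

theorem omegaZ_conj (P : Subgroup X) (d : X) (hdP : ∀ x, x ∈ P ↔ d * x * d⁻¹ ∈ P) (z : X)
    (hz : z ∈ omegaZ P) : d * z * d⁻¹ ∈ omegaZ P := by
  refine ⟨(hdP z).1 hz.1, ?_, ?_⟩
  · calc d * z * d⁻¹ * (d * z * d⁻¹) = d * (z * z) * d⁻¹ := by group
      _ = 1 := by rw [hz.2.1]; group
  · intro p hp
    have hq : d⁻¹ * p * d ∈ P := by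
      rw [hdP]
      have : d * (d⁻¹ * p * d) * d⁻¹ = p := by group
      rw [this]; exact hp
    have hcm := hz.2.2 _ hq
    calc p * (d * z * d⁻¹) = d * ((d⁻¹ * p * d) * z) * d⁻¹ := by group
      _ = d * (z * (d⁻¹ * p * d)) * d⁻¹ := by rw [hcm]
      _ = d * z * d⁻¹ * p := by group

theorem card_omegaZ [Finite X] (P : Subgroup X) (hP : IsPGroup 2 P)
    (hrank : ∀ V : Subgroup X, V ≤ P → IsMulCommutative V → Cfsg.PRankLE 2 2 V) (d : X)
    (hdP : ∀ x, x ∈ P ↔ d * x * d⁻¹ ∈ P) (hfpf : ∀ x ∈ P, d * x * d⁻¹ = x → x = 1)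
    (hPne : P ≠ ⊥) : Nat.card (omegaZ P) = 4 := by
  haveI : Nontrivial P := (Subgroup.nontrivial_iff_ne_bot P).2 hPne
  haveI : Nontrivial (Subgroup.center P) := hP.center_nontrivial
  have hZ : IsPGroup 2 (Subgroup.center P) := hP.to_subgroup _
  haveI : Fact (Nat.Prime 2) := ⟨Nat.prime_two⟩
  have hdvd : 2 ∣ Nat.card (Subgroup.center P) := by
    rcases hZ.card_eq_or_dvd with h | h
    · exfalso
      have := Finite.one_lt_card (α := Subgroup.center P)
      omega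
    · exact h
  obtain ⟨z, hz⟩ := exists_prime_orderOf_dvd_card' 2 hdvd
  have hzP : ((z : P) : X) ∈ P := (z : P).2
  have hz1 : ((z : P) : X) ≠ 1 := by
    intro h
    have : z = 1 := by
      apply Subtype.ext; apply Subtype.ext; simpa using h
    rw [this, orderOf_one] at hz
    omega
  have hz2 : ((z : P) : X) * ((z : P) : X) = 1 := by
    have := pow_orderOf_eq_one z
    rw [hz] at this
    have h' := congrArg (fun w : Subgroup.center P => ((w : P) : X)) this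
    simpa [pow_two] using h'
  have hzc : ∀ p ∈ P, p * ((z : P) : X) = ((z : P) : X) * p := by
    intro p hp
    have := Subgroup.mem_center_iff.1 z.2 ⟨p, hp⟩
    exact congrArg Subtype.val this
  have hzE : ((z : P) : X) ∈ omegaZ P := ⟨hzP, hz2, hzc⟩
  have hz₂E := omegaZ_conj P d hdP _ hzE
  have hz₂ne : d * ((z : P) : X) * d⁻¹ ≠ ((z : P) : X) := fun h => hz1 (hfpf _ hzP h)
  have hz₂1 : d * ((z : P) : X) * d⁻¹ ≠ 1 := by
    intro h
    apply hz1
    have : ((z : P) : X) = d⁻¹ * (d * ((z : P) : X) * d⁻¹) * d := by group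
    rw [this, h]; group
  have hHE : Subgroup.zpowers ((z : P) : X) ≤ omegaZ P := by
    rw [Subgroup.zpowers_le]; exact hzE
  have hHc := CW2.card_zp _ hz2 hz1
  have hz₂H : d * ((z : P) : X) * d⁻¹ ∉ Subgroup.zpowers ((z : P) : X) := by
    intro h
    rcases CW2.mem_zp _ hz2 _ h with h | h
    · exact hz₂1 h
    · exact hz₂ne h
  have hle4 : Nat.card (omegaZ P) ≤ 4 :=
    rank_le P hrank (omegaZ P) (fun y hy => hy.1) (fun a ha b hb => hb.2.2 a ha.1)
      (fun a ha => ha.2.1)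
  have hdv := Subgroup.card_dvd_of_le hHE
  rw [hHc] at hdv
  have hne2 : Nat.card (omegaZ P) ≠ 2 := by
    intro h
    have := Subgroup.eq_of_le_of_card_ge hHE (by rw [h, hHc])
    exact hz₂H (this ▸ hz₂E)
  have hpos : 0 < Nat.card (omegaZ P) := Nat.card_pos
  omega

theorem enum4 [Finite X] (E : Subgroup X) (hE2 : ∀ e ∈ E, e * e = 1) (hE4 : Nat.card E = 4)
    (e₀ : X) (h0 : e₀ ∈ E) (h01 : e₀ ≠ 1) (e₁ : X) (h1 : e₁ ∈ E) (h11 : e₁ ≠ 1)
    (h10 : e₁ ≠ e₀) : ∀ e ∈ E, e = 1 ∨ e = e₀ ∨ e = e₁ ∨ e = e₀ * e₁ := by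
  have hidx := CW2.idx_two E hE4 e₀ h0 (hE2 e₀ h0) h01
  have key : ∀ a ∈ E, ∀ b ∈ E, (a * b ∈ Subgroup.zpowers e₀ ↔
      (a ∈ Subgroup.zpowers e₀ ↔ b ∈ Subgroup.zpowers e₀)) := by
    intro a ha b hb
    have := Subgroup.mul_mem_iff_of_index_two hidx (a := ⟨a, ha⟩) (b := ⟨b, hb⟩)
    simpa only [Subgroup.mem_subgroupOf, Subgroup.coe_mul] using this
  have h1H : e₁ ∉ Subgroup.zpowers e₀ := by
    intro h
    rcases CW2.mem_zp e₀ (hE2 e₀ h0) e₁ h with h | h
    · exact h11 h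
    · exact h10 h
  intro e he
  by_cases heH : e ∈ Subgroup.zpowers e₀
  · rcases CW2.mem_zp e₀ (hE2 e₀ h0) e heH with h | h
    · exact Or.inl h
    · exact Or.inr (Or.inl h)
  · have hmem : e * e₁ ∈ Subgroup.zpowers e₀ := (key e he e₁ h1).2 (by tauto)
    have h1inv : e₁⁻¹ = e₁ := inv_eq_of_mul_eq_one_left (hE2 e₁ h1)
    rcases CW2.mem_zp e₀ (hE2 e₀ h0) _ hmem with h | h
    · right; right; left
      have : e = e₁⁻¹ := eq_inv_of_mul_eq_one_left h
      rw [this, h1inv]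
    · right; right; right
      have : e = e₀ * e₁⁻¹ := eq_mul_inv_of_mul_eq h
      rw [this, h1inv]

theorem cube_fix [Finite X] (P : Subgroup X) (d : X) (N : ℕ) (hN : d ^ N = 1) (hNodd : N % 2 = 1)
    (hdP : ∀ x, x ∈ P ↔ d * x * d⁻¹ ∈ P) (hfpf : ∀ x ∈ P, d * x * d⁻¹ = x → x = 1)
    (hE4 : Nat.card (omegaZ P) = 4) (e : X) (he : e ∈ omegaZ P) : d ^ 3 * e = e * d ^ 3 := by
  by_cases he1 : e = 1
  · rw [he1]; simp
  obtain ⟨e₁, he₁⟩ : ∃ e₁, e₁ = d * e * d⁻¹ := ⟨_, rfl⟩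
  have h1E : e₁ ∈ omegaZ P := by rw [he₁]; exact omegaZ_conj P d hdP e he
  have h11 : e₁ ≠ 1 := by
    intro h; apply he1
    have : e = d⁻¹ * e₁ * d := by rw [he₁]; group
    rw [this, h]; group
  have h10 : e₁ ≠ e := fun h => he1 (hfpf e he.1 (he₁ ▸ h))
  obtain ⟨e₂, he₂⟩ : ∃ e₂, e₂ = d * e₁ * d⁻¹ := ⟨_, rfl⟩
  have h2E : e₂ ∈ omegaZ P := by rw [he₂]; exact omegaZ_conj P d hdP e₁ h1E
  have h21 : e₂ ≠ 1 := by
    intro h; apply h11
    have : e₁ = d⁻¹ * e₂ * d := by rw [he₂]; group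
    rw [this, h]; group
  have h2e1 : e₂ ≠ e₁ := fun h => h11 (hfpf e₁ h1E.1 (he₂ ▸ h))
  have hE2 : ∀ a ∈ omegaZ P, a * a = 1 := fun a ha => ha.2.1
  rcases enum4 (omegaZ P) hE2 hE4 e he he1 e₁ h1E h11 h10 e₂ h2E with h | h | h | h
  · exact absurd h h21
  · exfalso
    have hc2 : Commute (d ^ 2) e := by
      show d ^ 2 * e = e * d ^ 2
      have h' : d * (d * e * d⁻¹) * d⁻¹ = e := by rw [← he₁, ← he₂]; exact h
      calc d ^ 2 * e = (d * (d * e * d⁻¹) * d⁻¹) * d ^ 2 := by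
            simp [pow_succ, mul_assoc]
        _ = e * d ^ 2 := by rw [h']
    have hm : 2 * ((N + 1) / 2) = N + 1 := by omega
    have hd : d = (d ^ 2) ^ ((N + 1) / 2) := by
      rw [← pow_mul, hm, pow_succ, hN, one_mul]
    have hc : Commute d e := by rw [hd]; exact hc2.pow_left _
    apply h10
    rw [he₁, hc.eq]; group
  · exact absurd h h2e1
  · have h3 : d * e₂ * d⁻¹ = e := by
      have hcomm : e₁ * e = e * e₁ := he.2.2 e₁ h1E.1
      calc d * e₂ * d⁻¹ = d * (e * e₁) * d⁻¹ := by rw [h]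
        _ = (d * e * d⁻¹) * (d * e₁ * d⁻¹) := by group
        _ = e₁ * e₂ := by rw [← he₁, ← he₂]
        _ = e₁ * (e * e₁) := by rw [h]
        _ = e₁ * (e₁ * e) := by rw [hcomm]
        _ = (e₁ * e₁) * e := by group
        _ = e := by rw [hE2 e₁ h1E, one_mul]
    calc d ^ 3 * e = (d * (d * (d * e * d⁻¹) * d⁻¹) * d⁻¹) * d ^ 3 := by
          simp [pow_succ, mul_assoc]
      _ = e * d ^ 3 := by rw [← he₁, ← he₂, h3]

theorem pow9 (h : X) (h9 : h ^ 9 = 1) (q : ℕ) : h ^ (9 * q + 3) = h ^ 3 := by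
  rw [pow_add, pow_mul, h9, one_pow, one_mul]

theorem free9 [Finite X] (h : X) (h9 : h ^ 9 = 1) (hne : h ^ 3 ≠ 1) (Y : Set X)
    (hY : ∀ a ∈ Subgroup.zpowers h, ∀ y ∈ Y, a * y * a⁻¹ ∈ Y)
    (hfree : ∀ y ∈ Y, ¬ (h ^ 3 * y = y * h ^ 3)) : 9 ∣ Nat.card Y := by
  classical
  have ho : orderOf h = 9 := by
    haveI : Fact (Nat.Prime 3) := ⟨Nat.prime_three⟩
    have := orderOf_eq_prime_pow (x := h) (p := 3) (n := 1) (by simpa using hne) (by simpa using h9)
    simpa using this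
  let act : Subgroup.zpowers h → Y → Y := fun a y =>
    ⟨(a : X) * (y : X) * (a : X)⁻¹, hY a a.2 y y.2⟩
  letI : MulAction (Subgroup.zpowers h) Y :=
    { smul := act
      one_smul := fun y => Subtype.ext (by
        show ((1 : Subgroup.zpowers h) : X) * (y : X) * ((1 : Subgroup.zpowers h) : X)⁻¹ = (y : X)
        simp)
      mul_smul := fun a b y => Subtype.ext (by
        show ((a * b : Subgroup.zpowers h) : X) * (y : X) * ((a * b : Subgroup.zpowers h) : X)⁻¹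
          = (a : X) * ((b : X) * (y : X) * (b : X)⁻¹) * (a : X)⁻¹
        rw [Subgroup.coe_mul]; group) }
  have hstab : ∀ y : Y, MulAction.stabilizer (Subgroup.zpowers h) y = ⊥ := by
    intro y
    rw [Subgroup.eq_bot_iff_forall]
    intro a ha
    have hay : (a : X) * (y : X) * (a : X)⁻¹ = (y : X) :=
      congrArg Subtype.val (MulAction.mem_stabilizer_iff.1 ha)
    have hcomm : Commute (a : X) (y : X) := by
      show (a : X) * (y : X) = (y : X) * (a : X)
      calc (a : X) * (y : X) = ((a : X) * (y : X) * (a : X)⁻¹) * (a : X) := by group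
        _ = (y : X) * (a : X) := by rw [hay]
    have hmem := (mem_zpowers_iff_mem_range_orderOf (x := h) (y := (a : X))).1 a.2
    rw [ho, Finset.mem_image] at hmem
    obtain ⟨r, hr, hra⟩ := hmem
    rw [Finset.mem_range] at hr
    by_cases hr0 : r = 0
    · have : (a : X) = 1 := by rw [← hra, hr0, pow_zero]
      exact Subtype.ext this
    · exfalso
      have hex : ∃ m : ℕ, (h ^ r) ^ m = h ^ 3 := by
        clear hra
        interval_cases r
        · exact absurd rfl hr0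
        · exact ⟨3, (pow_mul h 1 3).symm.trans (pow9 h h9 0)⟩
        · exact ⟨6, (pow_mul h 2 6).symm.trans (pow9 h h9 1)⟩
        · exact ⟨1, (pow_mul h 3 1).symm.trans (pow9 h h9 0)⟩
        · exact ⟨3, (pow_mul h 4 3).symm.trans (pow9 h h9 1)⟩
        · exact ⟨6, (pow_mul h 5 6).symm.trans (pow9 h h9 3)⟩
        · exact ⟨2, (pow_mul h 6 2).symm.trans (pow9 h h9 1)⟩
        · exact ⟨3, (pow_mul h 7 3).symm.trans (pow9 h h9 2)⟩
        · exact ⟨6, (pow_mul h 8 6).symm.trans (pow9 h h9 5)⟩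
      obtain ⟨m, hm⟩ := hex
      have hc3 : Commute (h ^ 3) (y : X) := by
        rw [← hm, hra]; exact hcomm.pow_left m
      exact hfree y y.2 hc3.eq
  have e := MulAction.selfEquivOrbitsQuotientProd hstab
  rw [Nat.card_congr e, Nat.card_prod, Nat.card_zpowers, ho]
  exact Dvd.intro_left _ rfl

theorem count9 [Finite X] (h : X) (h9 : h ^ 9 = 1) (R M : Subgroup X) (hMR : M ≤ R)
    (hR : ∀ x, x ∈ R ↔ h * x * h⁻¹ ∈ R) (hM : ∀ x, x ∈ M ↔ h * x * h⁻¹ ∈ M)
    (hfree : ∀ x ∈ R, h ^ 3 * x = x * h ^ 3 → x ∈ M) (hne : h ^ 3 ≠ 1) :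
    9 ∣ Nat.card R - Nat.card M := by
  have hKR : ∀ a ∈ Subgroup.zpowers h, ∀ x, x ∈ R ↔ a * x * a⁻¹ ∈ R := by
    intro a ha
    have h1 : h ∈ Subgroup.normalizer (R : Set X) := Subgroup.mem_normalizer_iff.2 hR
    exact Subgroup.mem_normalizer_iff.1 ((Subgroup.zpowers_le.2 h1) ha)
  have hKM : ∀ a ∈ Subgroup.zpowers h, ∀ x, x ∈ M ↔ a * x * a⁻¹ ∈ M := by
    intro a ha
    have h1 : h ∈ Subgroup.normalizer (M : Set X) := Subgroup.mem_normalizer_iff.2 hM
    exact Subgroup.mem_normalizer_iff.1 ((Subgroup.zpowers_le.2 h1) ha)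
  have h9' := free9 h h9 hne ((R : Set X) \ (M : Set X))
    (fun a ha y hy => ⟨(hKR a ha y).1 hy.1, fun hm => hy.2 ((hKM a ha y).2 hm)⟩)
    (fun y hy hc => hy.2 (hfree y hy.1 hc))
  have hsum : Nat.card ↥((R : Set X) \ (M : Set X)) + Nat.card M = Nat.card R :=
    Set.ncard_sdiff_add_ncard_of_subset (s := (M : Set X)) (t := (R : Set X)) hMR
  have : Nat.card R - Nat.card M = Nat.card ↥((R : Set X) \ (M : Set X)) := by omega
  rw [this]; exact h9'

end Cfsg.Agent.Helper10.R3
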