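import Mathlib
import Cfsg.Prelude.Def_CaseTheorems
import Cfsg.Agent.Helper10.R3a

set_option autoImplicit false

namespace Cfsg.Agent.Helper10.R3

variable {X : Type*} [Group X]

theorem norm_of_le [Finite X] (d : X) (W : Subgroup X) (hW : ∀ x ∈ W, d * x * d⁻¹ ∈ W) :
    d ∈ Subgroup.normalizer (W : Set X) := by
  have hk : ∀ k : ℕ, ∀ x ∈ W, d ^ k * x * (d ^ k)⁻¹ ∈ W := by
    intro k
    induction k with
    | zero => intro x hx; simpa using hx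
    | succ k ih =>
      intro x hx
      have h1 := hW _ (ih x hx)
      have e : d ^ (k + 1) * x * (d ^ (k + 1))⁻¹ = d * (d ^ k * x * (d ^ k)⁻¹) * d⁻¹ := by
        rw [pow_succ']; simp [mul_assoc]
      rw [e]; exact h1
  rw [Subgroup.mem_normalizer_iff]
  intro x
  refine ⟨hW x, fun hx => ?_⟩
  have hN : d ^ orderOf d = 1 := pow_orderOf_eq_one d
  have hpos : 0 < orderOf d := orderOf_pos d
  have h1 := hk (orderOf d - 1) _ hx
  have h2 : d ^ (orderOf d - 1) * d = 1 := by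
    rw [← pow_succ, Nat.sub_add_cancel hpos, hN]
  have h3 : (d ^ (orderOf d - 1))⁻¹ = d := inv_eq_of_mul_eq_one_right h2
  have e : d ^ (orderOf d - 1) * (d * x * d⁻¹) * (d ^ (orderOf d - 1))⁻¹ = x := by
    rw [h3]
    calc d ^ (orderOf d - 1) * (d * x * d⁻¹) * d
        = (d ^ (orderOf d - 1) * d) * x := by simp [mul_assoc]
      _ = x := by rw [h2, one_mul]
  rwa [e] at h1

theorem conj_closure (a : X) (S : Set X) (hS : ∀ y ∈ S, a * y * a⁻¹ ∈ Subgroup.closure S) :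
    ∀ w ∈ Subgroup.closure S, a * w * a⁻¹ ∈ Subgroup.closure S := by
  intro w hw
  induction hw using Subgroup.closure_induction with
  | mem x hx => exact hS x hx
  | one =>
    have e : a * 1 * a⁻¹ = 1 := by group
    rw [e]; exact Subgroup.one_mem _
  | mul u v _ _ ihu ihv =>
    have e : a * (u * v) * a⁻¹ = (a * u * a⁻¹) * (a * v * a⁻¹) := by group
    rw [e]; exact Subgroup.mul_mem _ ihu ihv
  | inv u _ ihu =>
    have e : a * u⁻¹ * a⁻¹ = (a * u * a⁻¹)⁻¹ := by group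
    rw [e]; exact Subgroup.inv_mem _ ihu

theorem conj_comm (a b x : X) (hab : a * b = b * a) :
    a * (b * x * b⁻¹) * a⁻¹ = b * (a * x * a⁻¹) * b⁻¹ := by
  calc a * (b * x * b⁻¹) * a⁻¹ = (a * b) * x * (a * b)⁻¹ := by group
    _ = (b * a) * x * (b * a)⁻¹ := by rw [hab]
    _ = b * (a * x * a⁻¹) * b⁻¹ := by group

theorem cube_triv (g x w : X) (hg3 : g * g * g = 1) (hA : g * x * g⁻¹ = w * x)
    (hB : g * w * g⁻¹ = w) : w * w * w = 1 := by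
  have h1 : g * (g * x * g⁻¹) * g⁻¹ = w * (w * x) := by
    rw [hA]
    calc g * (w * x) * g⁻¹ = (g * w * g⁻¹) * (g * x * g⁻¹) := by group
      _ = w * (w * x) := by rw [hB, hA]
  have h2 : g * (g * (g * x * g⁻¹) * g⁻¹) * g⁻¹ = w * (w * (w * x)) := by
    rw [h1]
    calc g * (w * (w * x)) * g⁻¹ = (g * w * g⁻¹) * ((g * w * g⁻¹) * (g * x * g⁻¹)) := by group
      _ = w * (w * (w * x)) := by rw [hB, hA]
  have h3 : g * (g * (g * x * g⁻¹) * g⁻¹) * g⁻¹ = (g * g * g) * x * (g * g * g)⁻¹ := by group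
  rw [h3, hg3] at h2
  have h4 : (w * w * w) * x = 1 * x := by
    calc (w * w * w) * x = w * (w * (w * x)) := by group
      _ = 1 * x * 1⁻¹ := h2.symm
      _ = 1 * x := by group
  exact mul_right_cancel h4

theorem comm_of_fix (g s z : X) (hs : g * s * g⁻¹ = s)
    (hz : g * (z⁻¹ * s * z) * g⁻¹ = z⁻¹ * s * z) :
    (g * z * g⁻¹ * z⁻¹) * s = s * (g * z * g⁻¹ * z⁻¹) := by
  have e : g * (z⁻¹ * s * z) * g⁻¹ = (g * z * g⁻¹)⁻¹ * (g * s * g⁻¹) * (g * z * g⁻¹) := by group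
  rw [e, hs] at hz
  calc (g * z * g⁻¹ * z⁻¹) * s = (g * z * g⁻¹) * (z⁻¹ * s * z) * z⁻¹ := by group
    _ = (g * z * g⁻¹) * ((g * z * g⁻¹)⁻¹ * s * (g * z * g⁻¹)) * z⁻¹ := by rw [hz]
    _ = s * (g * z * g⁻¹ * z⁻¹) := by group

theorem comm_sq (x y : X) (hxx : y * (x * x) = (x * x) * y)
    (hc : x * (x * y * x⁻¹ * y⁻¹) = (x * y * x⁻¹ * y⁻¹) * x) :
    (x * y * x⁻¹ * y⁻¹) * (x * y * x⁻¹ * y⁻¹) = 1 := by
  have e2 : (x * x) * y * (x * x)⁻¹ * y⁻¹ = 1 := by rw [← hxx]; group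
  calc (x * y * x⁻¹ * y⁻¹) * (x * y * x⁻¹ * y⁻¹)
      = ((x * y * x⁻¹ * y⁻¹) * x) * x⁻¹ * (x * y * x⁻¹ * y⁻¹) := by group
    _ = (x * (x * y * x⁻¹ * y⁻¹)) * x⁻¹ * (x * y * x⁻¹ * y⁻¹) := by rw [hc]
    _ = (x * x) * y * (x * x)⁻¹ * y⁻¹ := by group
    _ = 1 := e2

theorem comm3 (z a b e : X) (ha : z * a = a * z) (hb : z * b = b * z) (he : z * e = e * z) :
    z * (a * b * e) = (a * b * e) * z := by
  have h1 : Commute z a := ha
  have h2 : Commute z b := hb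
  have h3 : Commute z e := he
  exact ((h1.mul_right h2).mul_right h3).eq

theorem sq_in (R E : Subgroup X) (S : Set X) (hSR : ∀ y ∈ S, y ∈ R ∧ y * y ∈ E)
    (hc : ∀ a ∈ R, ∀ b ∈ R, a * b * a⁻¹ * b⁻¹ ∈ E) :
    ∀ w ∈ Subgroup.closure S, w ∈ R ∧ w * w ∈ E := by
  intro w hw
  induction hw using Subgroup.closure_induction with
  | mem x hx => exact hSR x hx
  | one => exact ⟨R.one_mem, by rw [one_mul]; exact E.one_mem⟩
  | mul a b _ _ iha ihb =>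
    refine ⟨R.mul_mem iha.1 ihb.1, ?_⟩
    have e : (a * b) * (a * b) = (a * a) * (a⁻¹ * b * a⁻¹⁻¹ * b⁻¹) * (b * b) := by group
    rw [e]
    exact E.mul_mem (E.mul_mem iha.2 (hc _ (R.inv_mem iha.1) _ ihb.1)) ihb.2
  | inv a _ iha =>
    refine ⟨R.inv_mem iha.1, ?_⟩
    have e : a⁻¹ * a⁻¹ = (a * a)⁻¹ := by group
    rw [e]; exact E.inv_mem iha.2

theorem gen_sq (a x : X) (haa : a * a = x * x)
    (hce : (x * x) * (a⁻¹ * x⁻¹ * a⁻¹⁻¹ * x⁻¹⁻¹) = (a⁻¹ * x⁻¹ * a⁻¹⁻¹ * x⁻¹⁻¹) * (x * x)) :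
    (a * x⁻¹) * (a * x⁻¹) = a⁻¹ * x⁻¹ * a⁻¹⁻¹ * x⁻¹⁻¹ := by
  calc (a * x⁻¹) * (a * x⁻¹)
      = (a * a) * (a⁻¹ * x⁻¹ * a⁻¹⁻¹ * x⁻¹⁻¹) * (x⁻¹ * x⁻¹) := by group
    _ = (x * x) * (a⁻¹ * x⁻¹ * a⁻¹⁻¹ * x⁻¹⁻¹) * (x⁻¹ * x⁻¹) := by rw [haa]
    _ = (a⁻¹ * x⁻¹ * a⁻¹⁻¹ * x⁻¹⁻¹) * (x * x) * (x⁻¹ * x⁻¹) := by rw [hce]
    _ = a⁻¹ * x⁻¹ * a⁻¹⁻¹ * x⁻¹⁻¹ := by group

/-- The subgroup of `R` fixed by conjugation with `g`. -/
def fixR (R : Subgroup X) (g : X) : Subgroup X where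
  carrier := {x | x ∈ R ∧ g * x * g⁻¹ = x}
  one_mem' := ⟨R.one_mem, by group⟩
  mul_mem' := by
    rintro a b ⟨ha, ha'⟩ ⟨hb, hb'⟩
    refine ⟨R.mul_mem ha hb, ?_⟩
    calc g * (a * b) * g⁻¹ = (g * a * g⁻¹) * (g * b * g⁻¹) := by group
      _ = a * b := by rw [ha', hb']
  inv_mem' := by
    rintro a ⟨ha, ha'⟩
    refine ⟨R.inv_mem ha, ?_⟩
    calc g * a⁻¹ * g⁻¹ = (g * a * g⁻¹)⁻¹ := by group
      _ = a⁻¹ := by rw [ha']

theorem mem_fixR (R : Subgroup X) (g x : X) : x ∈ fixR R g ↔ x ∈ R ∧ g * x * g⁻¹ = x := Iff.rfl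

theorem sq_proper [Finite X] (R : Subgroup X) (hR : IsPGroup 2 R) (hne : R ≠ ⊥) :
    Subgroup.closure {y | ∃ x ∈ R, y = x * x} ≠ R := by
  haveI : Fact (Nat.Prime 2) := ⟨Nat.prime_two⟩
  obtain ⟨k, hk⟩ := IsPGroup.iff_card.1 hR
  have hk0 : k ≠ 0 := by
    rintro rfl
    apply hne
    rw [← Subgroup.card_eq_one]
    simpa using hk
  obtain ⟨j, rfl⟩ : ∃ j, k = j + 1 := ⟨k - 1, by omega⟩
  obtain ⟨K, hK⟩ := Sylow.exists_subgroup_card_pow_prime (G := R) 2 (n := j)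
    (by rw [hk]; exact pow_dvd_pow 2 (Nat.le_succ j))
  have hidx : K.index = 2 := by
    have h1 := K.index_mul_card
    rw [hK, hk] at h1
    have h1' : K.index * 2 ^ j = 2 * 2 ^ j := by rw [h1]; ring
    exact Nat.eq_of_mul_eq_mul_right (by positivity) h1'
  intro hT
  have hle : Subgroup.closure {y | ∃ x ∈ R, y = x * x} ≤ K.map R.subtype := by
    refine (Subgroup.closure_le _).2 ?_
    rintro y ⟨x, hx, rfl⟩
    exact Subgroup.mem_map.2 ⟨⟨x, hx⟩ * ⟨x, hx⟩,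
      Subgroup.mul_self_mem_of_index_two hidx ⟨x, hx⟩, rfl⟩
  rw [hT] at hle
  have hc1 : Nat.card R ≤ Nat.card (K.map R.subtype) := Subgroup.card_le_of_le hle
  have hc2 : Nat.card (K.map R.subtype) = Nat.card K :=
    Subgroup.card_map_of_injective (Subgroup.subtype_injective R)
  rw [hc2, hK, hk] at hc1
  have hlt : 2 ^ j < 2 ^ (j + 1) := Nat.pow_lt_pow_right (by norm_num) (by omega)
  exact absurd hc1 (not_le.2 hlt)

theorem arith9 (k l : ℕ) (hl : 2 ≤ l) (hlk : l < k) (h9 : 9 ∣ 2 ^ k - 2 ^ l) : 128 ≤ 2 ^ k := by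
  obtain ⟨j, rfl⟩ : ∃ j, k = l + j := ⟨k - l, by omega⟩
  have hj : 0 < j := by omega
  have e : 2 ^ (l + j) - 2 ^ l = 2 ^ l * (2 ^ j - 1) := by
    rw [pow_add, Nat.mul_sub_one]
  rw [e] at h9
  have hcop : Nat.Coprime 9 (2 ^ l) := Nat.Coprime.pow_right l (by decide)
  have h9' : 9 ∣ 2 ^ j - 1 := hcop.dvd_of_dvd_mul_left h9
  have hj6 : 6 ≤ j := by
    by_contra hlt
    push_neg at hlt
    clear e h9 hlk
    interval_cases j <;> revert h9' <;> decide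
  calc 128 ≤ 2 ^ 8 := by norm_num
    _ ≤ 2 ^ (l + j) := Nat.pow_le_pow_right (by norm_num) (by omega)

end Cfsg.Agent.Helper10.R3
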