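import Mathlib
import Cfsg.Prelude.Def_CaseTheorems
import Cfsg.Agent.Helper10.R3b

set_option autoImplicit false

namespace Cfsg.Agent.Helper10.R3

variable {X : Type*} [Group X]

theorem core_min [Finite X] (P : Subgroup X) (hP : IsPGroup 2 P)
    (hrank : ∀ V : Subgroup X, V ≤ P → IsMulCommutative V → Cfsg.PRankLE 2 2 V)
    (d : X) (hdP : ∀ x, x ∈ P ↔ d * x * d⁻¹ ∈ P)
    (hfpf : ∀ x ∈ P, d * x * d⁻¹ = x → x = 1)
    (hE4 : Nat.card (omegaZ P) = 4)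
    (g h : X) (hgd : g ∈ Subgroup.zpowers d) (hhd : h ∈ Subgroup.zpowers d)
    (hdg : d * g = g * d) (hh3 : h ^ 3 = g) (hg3 : g * g * g = 1) (hg1 : g ≠ 1)
    (hgE : ∀ e ∈ omegaZ P, g * e * g⁻¹ = e)
    (R : Subgroup X) (hRP : R ≤ P) (hdR : d ∈ Subgroup.normalizer (R : Set X))
    (hgR : ¬ ∀ x ∈ R, g * x * g⁻¹ = x)
    (hmin : ∀ R' : Subgroup X, R' ≤ R → R' ≠ R → d ∈ Subgroup.normalizer (R' : Set X) →
      ∀ x ∈ R', g * x * g⁻¹ = x) : False := by
  have hdR' : ∀ x, x ∈ R ↔ d * x * d⁻¹ ∈ R := Subgroup.mem_normalizer_iff.1 hdR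
  have hgR' : ∀ x, x ∈ R ↔ g * x * g⁻¹ ∈ R :=
    Subgroup.mem_normalizer_iff.1 ((Subgroup.zpowers_le.2 hdR) hgd)
  have hhR' : ∀ x, x ∈ R ↔ h * x * h⁻¹ ∈ R :=
    Subgroup.mem_normalizer_iff.1 ((Subgroup.zpowers_le.2 hdR) hhd)
  have hRne : R ≠ ⊥ := by
    intro hbot
    apply hgR
    intro x hx
    rw [hbot] at hx
    rw [Subgroup.mem_bot.1 hx]; group
  -- Step 1: the subgroup generated by the `g x g⁻¹ x⁻¹` is all of `R`
  obtain ⟨W, hWdef⟩ : ∃ W : Subgroup X,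
      W = Subgroup.closure {y | ∃ x ∈ R, y = g * x * g⁻¹ * x⁻¹} := ⟨_, rfl⟩
  have hWR : W ≤ R := by
    rw [hWdef]
    refine (Subgroup.closure_le _).2 ?_
    rintro y ⟨x, hx, rfl⟩
    exact R.mul_mem ((hgR' x).1 hx) (R.inv_mem hx)
  have hWd : ∀ w ∈ W, d * w * d⁻¹ ∈ W := by
    rw [hWdef]
    refine conj_closure d _ ?_
    rintro y ⟨x, hx, rfl⟩
    refine Subgroup.subset_closure ⟨d * x * d⁻¹, (hdR' x).1 hx, ?_⟩
    calc d * (g * x * g⁻¹ * x⁻¹) * d⁻¹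
        = (d * (g * x * g⁻¹) * d⁻¹) * (d * x * d⁻¹)⁻¹ := by group
      _ = g * (d * x * d⁻¹) * g⁻¹ * (d * x * d⁻¹)⁻¹ := by rw [conj_comm d g x hdg]
  have hWeq : W = R := by
    by_contra hne
    have hfixW := hmin W hWR hne (norm_of_le d W hWd)
    apply hgR
    intro x hx
    have hw : g * x * g⁻¹ * x⁻¹ ∈ W := by
      rw [hWdef]; exact Subgroup.subset_closure ⟨x, hx, rfl⟩
    have hA : g * x * g⁻¹ = (g * x * g⁻¹ * x⁻¹) * x := by group
    have h3 := cube_triv g x (g * x * g⁻¹ * x⁻¹) hg3 hA (hfixW _ hw)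
    have h1 := two_three P hP _ (hRP (hWR hw)) h3
    exact mul_inv_eq_one.1 h1
  -- Step 2: squares are fixed by `g`
  obtain ⟨T, hTdef⟩ : ∃ T : Subgroup X,
      T = Subgroup.closure {y | ∃ x ∈ R, y = x * x} := ⟨_, rfl⟩
  have hTR : T ≤ R := by
    rw [hTdef]
    refine (Subgroup.closure_le _).2 ?_
    rintro y ⟨x, hx, rfl⟩
    exact R.mul_mem hx hx
  have hTd : ∀ w ∈ T, d * w * d⁻¹ ∈ T := by
    rw [hTdef]
    refine conj_closure d _ ?_
    rintro y ⟨x, hx, rfl⟩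
    refine Subgroup.subset_closure ⟨d * x * d⁻¹, (hdR' x).1 hx, ?_⟩
    group
  have hTne : T ≠ R := by
    rw [hTdef]; exact sq_proper R (hP.to_le hRP) hRne
  have hT : ∀ x ∈ R, g * (x * x) * g⁻¹ = x * x := by
    intro x hx
    refine hmin T hTR hTne (norm_of_le d T hTd) _ ?_
    rw [hTdef]; exact Subgroup.subset_closure ⟨x, hx, rfl⟩
  -- Step 3: squares are central in `R`
  have hcR : ∀ x ∈ R, ∀ z ∈ R, z * (x * x) = (x * x) * z := by
    intro x hx z hz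
    have hle : W ≤ Subgroup.centralizer {x * x} := by
      rw [hWdef]
      refine (Subgroup.closure_le _).2 ?_
      rintro y ⟨u, hu, rfl⟩
      show g * u * g⁻¹ * u⁻¹ ∈ Subgroup.centralizer {x * x}
      rw [Subgroup.mem_centralizer_iff]
      intro t ht
      rw [Set.mem_singleton_iff] at ht
      rw [ht]
      refine (comm_of_fix g (x * x) u (hT x hx) ?_).symm
      have e : u⁻¹ * (x * x) * u = (u⁻¹ * x * u) * (u⁻¹ * x * u) := by group
      rw [e]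
      exact hT _ (R.mul_mem (R.mul_mem (R.inv_mem hu) hx) hu)
    have hzW : z ∈ W := by rw [hWeq]; exact hz
    exact (Subgroup.mem_centralizer_iff.1 (hle hzW) (x * x) (Set.mem_singleton _)).symm
  -- Step 4: commutators lie in `Ω₁(Z(P))`
  have hcomm : ∀ x ∈ R, ∀ y ∈ R, x * y * x⁻¹ * y⁻¹ ∈ omegaZ P := by
    intro x hx y hy
    have hid : x * y * x⁻¹ * y⁻¹ = (x * x) * ((x⁻¹ * y) * (x⁻¹ * y)) * (y⁻¹ * y⁻¹) := by group
    have hcen : ∀ z ∈ R, z * (x * y * x⁻¹ * y⁻¹) = (x * y * x⁻¹ * y⁻¹) * z := by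
      intro z hz
      rw [hid]
      exact comm3 z _ _ _ (hcR x hx z hz) (hcR _ (R.mul_mem (R.inv_mem hx) hy) z hz)
        (hcR _ (R.inv_mem hy) z hz)
    have hc2 := comm_sq x y (hcR x hx y hy) (hcen x hx)
    exact inv_in P hrank hE4 _
      (hRP (R.mul_mem (R.mul_mem (R.mul_mem hx hy) (R.inv_mem hx)) (R.inv_mem hy))) hc2
  -- Step 5: squares lie in `Ω₁(Z(P))`
  have hsqE : ∀ x ∈ R, x * x ∈ omegaZ P := by
    intro x hx
    have hgen : ∀ y ∈ {y | ∃ x ∈ R, y = g * x * g⁻¹ * x⁻¹}, y ∈ R ∧ y * y ∈ omegaZ P := by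
      rintro y ⟨u, hu, rfl⟩
      have ha : g * u * g⁻¹ ∈ R := (hgR' u).1 hu
      refine ⟨R.mul_mem ha (R.inv_mem hu), ?_⟩
      have haa : (g * u * g⁻¹) * (g * u * g⁻¹) = u * u := by
        calc (g * u * g⁻¹) * (g * u * g⁻¹) = g * (u * u) * g⁻¹ := by group
          _ = u * u := hT u hu
      have he := hcomm (g * u * g⁻¹)⁻¹ (R.inv_mem ha) u⁻¹ (R.inv_mem hu)
      have hce := he.2.2 (u * u) (hRP (R.mul_mem hu hu))
      rw [gen_sq (g * u * g⁻¹) u haa hce]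
      exact he
    have hxW : x ∈ Subgroup.closure {y | ∃ x ∈ R, y = g * x * g⁻¹ * x⁻¹} := by
      rw [← hWdef, hWeq]; exact hx
    exact (sq_in R (omegaZ P) _ hgen hcomm x hxW).2
  -- Step 6: `Ω₁(Z(P)) ≤ R`
  have hER : omegaZ P ≤ R := by
    obtain ⟨x, hxR, hx1⟩ : ∃ x ∈ R, x ≠ 1 := by
      by_contra hcon
      push_neg at hcon
      exact hgR (fun x hx => by rw [hcon x hx]; group)
    obtain ⟨e₀, h0R, h0E, h01⟩ : ∃ e₀ ∈ R, e₀ ∈ omegaZ P ∧ e₀ ≠ 1 := by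
      by_cases hxx : x * x = 1
      · exact ⟨x, hxR, inv_in P hrank hE4 x (hRP hxR) hxx, hx1⟩
      · exact ⟨x * x, R.mul_mem hxR hxR, hsqE x hxR, hxx⟩
    have h1R : d * e₀ * d⁻¹ ∈ R := (hdR' e₀).1 h0R
    have h1E : d * e₀ * d⁻¹ ∈ omegaZ P := omegaZ_conj P d hdP e₀ h0E
    have h11 : d * e₀ * d⁻¹ ≠ 1 := by
      intro hh
      apply h01
      have e : e₀ = d⁻¹ * (d * e₀ * d⁻¹) * d := by group
      rw [e, hh]; group
    have h10 : d * e₀ * d⁻¹ ≠ e₀ := fun hh => h01 (hfpf e₀ h0E.1 hh)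
    intro e he
    rcases enum4 (omegaZ P) (fun a ha => ha.2.1) hE4 e₀ h0E h01 _ h1E h11 h10 e he
      with h | h | h | h
    · rw [h]; exact R.one_mem
    · rw [h]; exact h0R
    · rw [h]; exact h1R
    · rw [h]; exact R.mul_mem h0R h1R
  -- Step 7: counting
  have hgh : g * h = h * g := by
    rw [← hh3]; exact ((Commute.refl h).pow_left 3).eq
  have h9 : h ^ 9 = 1 := by
    have e : h ^ 9 = (h ^ 3) ^ 3 := pow_mul h 3 3
    rw [e, hh3, pow_three']; exact hg3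
  have hMR : fixR R g ≤ R := fun x hx => hx.1
  have hMh : ∀ x ∈ fixR R g, h * x * h⁻¹ ∈ fixR R g := by
    intro x hx
    refine ⟨(hhR' x).1 hx.1, ?_⟩
    rw [conj_comm g h x hgh, hx.2]
  have hMh' : ∀ x, x ∈ fixR R g ↔ h * x * h⁻¹ ∈ fixR R g :=
    Subgroup.mem_normalizer_iff.1 (norm_of_le h _ hMh)
  have hfree : ∀ x ∈ R, h ^ 3 * x = x * h ^ 3 → x ∈ fixR R g := by
    intro x hx hc
    rw [hh3] at hc
    refine ⟨hx, ?_⟩
    rw [hc]; group
  have hne3 : h ^ 3 ≠ 1 := by rw [hh3]; exact hg1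
  have hdvd9 := count9 h h9 R (fixR R g) hMR hhR' hMh' hfree hne3
  have hEM : omegaZ P ≤ fixR R g := fun e he => ⟨hER he, hgE e he⟩
  have hMne : fixR R g ≠ R := by
    intro hEq
    apply hgR
    intro x hx
    have hx' : x ∈ fixR R g := by rw [hEq]; exact hx
    exact hx'.2
  haveI : Fact (Nat.Prime 2) := ⟨Nat.prime_two⟩
  obtain ⟨k, hk⟩ := IsPGroup.iff_card.1 (hP.to_le hRP)
  have hMdvd : Nat.card (fixR R g) ∣ Nat.card R := Subgroup.card_dvd_of_le hMR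
  rw [hk] at hMdvd
  obtain ⟨l, hlk, hl⟩ := (Nat.dvd_prime_pow Nat.prime_two).1 hMdvd
  have hlne : l ≠ k := by
    intro hEq
    apply hMne
    refine Subgroup.eq_of_le_of_card_ge hMR ?_
    rw [hk, hl, hEq]
  have h4 : 4 ≤ 2 ^ l := by
    rw [← hl, ← hE4]; exact Subgroup.card_le_of_le hEM
  have hl2 : 2 ≤ l := by
    by_contra hlt
    push_neg at hlt
    have hlt' : 2 ^ l < 2 ^ 2 := Nat.pow_lt_pow_right (by norm_num) hlt
    have e4 : (2 : ℕ) ^ 2 = 4 := by norm_num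
    rw [e4] at hlt'
    exact absurd h4 (not_le.2 hlt')
  rw [hk, hl] at hdvd9
  have h128 : 128 ≤ Nat.card R := by
    rw [hk]; exact arith9 k l hl2 (lt_of_le_of_ne hlk hlne) hdvd9
  -- Step 8: an involution outside `Ω₁(Z(P))`
  have hE4' : Nat.card ((omegaZ P).subgroupOf R) = 4 := by
    rw [← hE4]
    exact Nat.card_congr (Subgroup.subgroupOfEquivOfLe hER).toEquiv
  obtain ⟨x, hxE, hxx⟩ := CW2.main ((omegaZ P).subgroupOf R)
    (fun e he x => Subtype.ext ((Subgroup.mem_subgroupOf.1 he).2.2 (x : X) (hRP x.2)).symm)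
    (fun e he => Subtype.ext (Subgroup.mem_subgroupOf.1 he).2.1)
    hE4'
    (fun x => Subgroup.mem_subgroupOf.2 (hsqE x x.2))
    h128
  apply hxE
  refine Subgroup.mem_subgroupOf.2 (inv_in P hrank hE4 x (hRP x.2) ?_)
  exact congrArg Subtype.val hxx

theorem core_all [Finite X] (P : Subgroup X) (hP : IsPGroup 2 P)
    (hrank : ∀ V : Subgroup X, V ≤ P → IsMulCommutative V → Cfsg.PRankLE 2 2 V)
    (d : X) (hdP : ∀ x, x ∈ P ↔ d * x * d⁻¹ ∈ P)
    (hfpf : ∀ x ∈ P, d * x * d⁻¹ = x → x = 1)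
    (hE4 : Nat.card (omegaZ P) = 4)
    (g h : X) (hgd : g ∈ Subgroup.zpowers d) (hhd : h ∈ Subgroup.zpowers d)
    (hdg : d * g = g * d) (hh3 : h ^ 3 = g) (hg3 : g * g * g = 1) (hg1 : g ≠ 1)
    (hgE : ∀ e ∈ omegaZ P, g * e * g⁻¹ = e) :
    ∀ n : ℕ, ∀ R : Subgroup X, Nat.card R = n → R ≤ P →
      d ∈ Subgroup.normalizer (R : Set X) → ∀ x ∈ R, g * x * g⁻¹ = x := by
  intro n
  induction n using Nat.strong_induction_on with
  | _ n ih =>
    intro R hn hRP hdR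
    by_contra hgR
    refine core_min P hP hrank d hdP hfpf hE4 g h hgd hhd hdg hh3 hg3 hg1 hgE R hRP hdR hgR ?_
    intro R' hle hne hdR'
    refine ih (Nat.card R') ?_ R' rfl (hle.trans hRP) hdR'
    rw [← hn]
    by_contra hlt
    push_neg at hlt
    exact hne (Subgroup.eq_of_le_of_card_ge hle hlt)

theorem final [Finite X] (d : X) (m : ℕ) (hd : orderOf d = 3 ^ (m + 2)) (P : Subgroup X)
    (hP : IsPGroup 2 P) (hdP : d ∈ Subgroup.normalizer (P : Set X))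
    (hfaith : Subgroup.zpowers d ⊓ Subgroup.centralizer (P : Set X) = ⊥)
    (hfpf : P ⊓ Subgroup.centralizer {d} = ⊥)
    (hrank : ∀ V : Subgroup X, V ≤ P → IsMulCommutative V → Cfsg.PRankLE 2 2 V) : False := by
  have hdP' : ∀ x, x ∈ P ↔ d * x * d⁻¹ ∈ P := Subgroup.mem_normalizer_iff.1 hdP
  have hfpf' : ∀ x ∈ P, d * x * d⁻¹ = x → x = 1 := by
    intro x hx hfix
    have hmem : x ∈ P ⊓ Subgroup.centralizer {d} := by
      refine Subgroup.mem_inf.2 ⟨hx, ?_⟩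
      rw [Subgroup.mem_centralizer_iff]
      intro t ht
      rw [Set.mem_singleton_iff] at ht
      rw [ht]
      calc d * x = (d * x * d⁻¹) * d := by group
        _ = x * d := by rw [hfix]
    rw [hfpf] at hmem
    exact Subgroup.mem_bot.1 hmem
  have hd1 : d ≠ 1 := by
    intro h1
    rw [h1, orderOf_one] at hd
    have h3 : 3 ∣ 3 ^ (m + 2) := dvd_pow_self 3 (by omega)
    rw [← hd] at h3
    exact absurd h3 (by norm_num)
  have hPne : P ≠ ⊥ := by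
    intro hbot
    have hmem : d ∈ Subgroup.zpowers d ⊓ Subgroup.centralizer (P : Set X) := by
      refine Subgroup.mem_inf.2 ⟨Subgroup.mem_zpowers d, ?_⟩
      rw [Subgroup.mem_centralizer_iff]
      intro t ht
      have ht' : t ∈ P := ht
      rw [hbot] at ht'
      rw [Subgroup.mem_bot.1 ht']; simp
    rw [hfaith] at hmem
    exact hd1 (Subgroup.mem_bot.1 hmem)
  have hE4 : Nat.card (omegaZ P) = 4 := card_omegaZ P hP hrank d hdP' hfpf' hPne
  have hN : d ^ (3 ^ (m + 2)) = 1 := by rw [← hd]; exact pow_orderOf_eq_one d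
  have hNodd : 3 ^ (m + 2) % 2 = 1 := Nat.odd_iff.1 (Odd.pow ⟨1, by norm_num⟩)
  obtain ⟨g, hgdef⟩ : ∃ g, g = d ^ (3 ^ (m + 1)) := ⟨_, rfl⟩
  obtain ⟨h, hhdef⟩ : ∃ h, h = d ^ (3 ^ m) := ⟨_, rfl⟩
  have hgd : g ∈ Subgroup.zpowers d := by
    rw [hgdef]; exact Subgroup.pow_mem _ (Subgroup.mem_zpowers d) _
  have hhd : h ∈ Subgroup.zpowers d := by
    rw [hhdef]; exact Subgroup.pow_mem _ (Subgroup.mem_zpowers d) _
  have hdg : d * g = g * d := by
    rw [hgdef]; exact ((Commute.refl d).pow_right _).eq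
  have hh3 : h ^ 3 = g := by
    rw [hhdef, hgdef, ← pow_mul]
    congr 1
  have hg3 : g * g * g = 1 := by
    have e : g * g * g = d ^ (3 ^ (m + 2)) := by
      rw [hgdef, ← pow_add, ← pow_add]
      congr 1
      ring
    rw [e]; exact hN
  have hg1 : g ≠ 1 := by
    intro h1
    rw [hgdef] at h1
    have hdvd : orderOf d ∣ 3 ^ (m + 1) := orderOf_dvd_of_pow_eq_one h1
    rw [hd] at hdvd
    have hle := Nat.le_of_dvd (by positivity) hdvd
    have hlt : 3 ^ (m + 1) < 3 ^ (m + 2) := Nat.pow_lt_pow_right (by norm_num) (by omega)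
    exact absurd hle (not_le.2 hlt)
  have hgE : ∀ e ∈ omegaZ P, g * e * g⁻¹ = e := by
    intro e he
    have hc : Commute (d ^ 3) e := cube_fix P d (3 ^ (m + 2)) hN hNodd hdP' hfpf' hE4 e he
    have h3m : 3 ^ (m + 1) = 3 * 3 ^ m := by ring
    have hg' : g = (d ^ 3) ^ (3 ^ m) := by rw [hgdef, h3m, pow_mul]
    have hc' : Commute g e := by rw [hg']; exact hc.pow_left _
    rw [hc'.eq]; group
  have hall := core_all P hP hrank d hdP' hfpf' hE4 g h hgd hhd hdg hh3 hg3 hg1 hgE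
    (Nat.card P) P rfl le_rfl hdP
  apply hg1
  have hmem : g ∈ Subgroup.zpowers d ⊓ Subgroup.centralizer (P : Set X) := by
    refine Subgroup.mem_inf.2 ⟨hgd, ?_⟩
    rw [Subgroup.mem_centralizer_iff]
    intro t ht
    calc t * g = (g * t * g⁻¹) * g := by rw [hall t ht]
      _ = g * t := by group
  rw [hfaith] at hmem
  exact Subgroup.mem_bot.1 hmem

end Cfsg.Agent.Helper10.R3
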