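import Mathlib
import Cfsg.Prelude.Def_CaseTheorems
import Cfsg.Agent.Helper10.R3c

set_option autoImplicit false

namespace Cfsg.Agent.Helper10.R3

variable {X : Type*} [Group X]

theorem free_dvd [Finite X] (K : Subgroup X) (Y : Set X)
    (hY : ∀ a ∈ K, ∀ y ∈ Y, a * y * a⁻¹ ∈ Y)
    (hfree : ∀ a ∈ K, ∀ y ∈ Y, a * y * a⁻¹ = y → a = 1) : Nat.card K ∣ Nat.card Y := by
  classical
  let act : K → Y → Y := fun a y => ⟨(a : X) * (y : X) * (a : X)⁻¹, hY a a.2 y y.2⟩
  letI : MulAction K Y :=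
    { smul := act
      one_smul := fun y => Subtype.ext (by
        show ((1 : K) : X) * (y : X) * ((1 : K) : X)⁻¹ = (y : X)
        simp)
      mul_smul := fun a b y => Subtype.ext (by
        show ((a * b : K) : X) * (y : X) * ((a * b : K) : X)⁻¹
          = (a : X) * ((b : X) * (y : X) * (b : X)⁻¹) * (a : X)⁻¹
        rw [Subgroup.coe_mul]; group) }
  have hstab : ∀ y : Y, MulAction.stabilizer K y = ⊥ := by
    intro y
    rw [Subgroup.eq_bot_iff_forall]
    intro a ha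
    have hay : (a : X) * (y : X) * (a : X)⁻¹ = (y : X) :=
      congrArg Subtype.val (MulAction.mem_stabilizer_iff.1 ha)
    exact Subtype.ext (hfree a a.2 y y.2 hay)
  have e := MulAction.selfEquivOrbitsQuotientProd hstab
  rw [Nat.card_congr e, Nat.card_prod]
  exact Dvd.intro_left _ rfl

theorem pow3_cases (a : X) (h3 : a ^ 3 = 1) (j : ℕ) : a ^ j = 1 ∨ a ^ j = a ∨ a ^ j = a⁻¹ := by
  have hj : a ^ j = a ^ (j % 3) := by
    conv_lhs => rw [← Nat.div_add_mod j 3]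
    rw [pow_add, pow_mul, h3, one_pow, one_mul]
  have key : ∀ r : ℕ, r < 3 → a ^ r = 1 ∨ a ^ r = a ∨ a ^ r = a⁻¹ := by
    intro r hr
    interval_cases r
    · left; simp
    · right; left; simp
    · right; right
      exact eq_inv_of_mul_eq_one_left (by rw [← pow_succ]; exact h3)
  rw [hj]; exact key _ (Nat.mod_lt _ (by norm_num))

theorem k_form (u d : X) (hud : u * d = d * u) (hu3 : u ^ 3 = 1) (hd3 : d ^ 3 = 1) :
    ∀ a ∈ Subgroup.closure ({u, d} : Set X), ∃ i j : ℕ, a = u ^ i * d ^ j := by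
  have hc : Commute u d := hud
  intro a ha
  induction ha using Subgroup.closure_induction with
  | mem x hx =>
    rcases hx with h | h
    · exact ⟨1, 0, by rw [h]; simp⟩
    · have h' : x = d := h
      exact ⟨0, 1, by rw [h']; simp⟩
  | one => exact ⟨0, 0, by simp⟩
  | mul x y _ _ ihx ihy =>
    obtain ⟨i, j, rfl⟩ := ihx
    obtain ⟨k, l, rfl⟩ := ihy
    refine ⟨i + k, j + l, ?_⟩
    have h1 : Commute (d ^ j) (u ^ k) := (hc.pow_pow k j).symm
    calc u ^ i * d ^ j * (u ^ k * d ^ l) = u ^ i * (d ^ j * u ^ k) * d ^ l := by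
          simp [mul_assoc]
      _ = u ^ i * (u ^ k * d ^ j) * d ^ l := by rw [h1.eq]
      _ = u ^ (i + k) * d ^ (j + l) := by simp [pow_add, mul_assoc]
  | inv x _ ihx =>
    obtain ⟨i, j, rfl⟩ := ihx
    refine ⟨2 * i, 2 * j, ?_⟩
    apply inv_eq_of_mul_eq_one_right
    have h1 : Commute (d ^ j) (u ^ (2 * i)) := (hc.pow_pow (2 * i) j).symm
    have e3i : 3 * i = i + 2 * i := by ring
    have e3j : 3 * j = j + 2 * j := by ring
    calc u ^ i * d ^ j * (u ^ (2 * i) * d ^ (2 * j))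
        = u ^ i * (d ^ j * u ^ (2 * i)) * d ^ (2 * j) := by simp [mul_assoc]
      _ = u ^ i * (u ^ (2 * i) * d ^ j) * d ^ (2 * j) := by rw [h1.eq]
      _ = u ^ (3 * i) * d ^ (3 * j) := by
          rw [e3i, e3j, pow_add, pow_add]
          simp [mul_assoc]
      _ = 1 := by rw [pow_mul, pow_mul, hu3, hd3]; simp

theorem k_card9 [Finite X] (u d : X) (hud : u * d = d * u) (hu3 : u ^ 3 = 1) (hd3 : d ^ 3 = 1)
    (hu1 : u ≠ 1) (hdu : d ∉ Subgroup.zpowers u) :
    9 ∣ Nat.card (Subgroup.closure ({u, d} : Set X)) := by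
  haveI : Fact (Nat.Prime 3) := ⟨Nat.prime_three⟩
  have hc : Commute u d := hud
  have hK3 : IsPGroup 3 (Subgroup.closure ({u, d} : Set X)) := by
    intro g
    refine ⟨1, ?_⟩
    obtain ⟨i, j, hij⟩ := k_form u d hud hu3 hd3 g g.2
    apply Subtype.ext
    have h3 : (g : X) ^ 3 = 1 := by
      rw [hij, (hc.pow_pow i j).mul_pow, pow_right_comm u, pow_right_comm d, hu3, hd3]
      simp
    simpa using h3
  obtain ⟨a, ha⟩ := IsPGroup.iff_card.1 hK3
  have hle : Subgroup.zpowers u ≤ Subgroup.closure ({u, d} : Set X) := by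
    rw [Subgroup.zpowers_le]; exact Subgroup.subset_closure (by simp)
  have hcu : Nat.card (Subgroup.zpowers u) = 3 := by
    rw [Nat.card_zpowers]; exact orderOf_eq_prime hu3 hu1
  have hdvd := Subgroup.card_dvd_of_le hle
  rw [hcu, ha] at hdvd
  have ha2 : 2 ≤ a := by
    by_contra hlt
    push_neg at hlt
    interval_cases a
    · norm_num at hdvd
    · apply hdu
      have hEq := Subgroup.eq_of_le_of_card_ge hle (by rw [hcu, ha]; norm_num)
      rw [hEq]; exact Subgroup.subset_closure (by simp)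
  rw [ha]
  exact pow_dvd_pow 3 ha2

theorem count_e9 [Finite X] (u d : X) (hud : u * d = d * u) (hu3 : u ^ 3 = 1) (hd3 : d ^ 3 = 1)
    (hu1 : u ≠ 1) (hdu : d ∉ Subgroup.zpowers u) (R M : Subgroup X) (hMR : M ≤ R)
    (hRu : u ∈ Subgroup.normalizer (R : Set X)) (hRd : d ∈ Subgroup.normalizer (R : Set X))
    (hMu : u ∈ Subgroup.normalizer (M : Set X)) (hMd : d ∈ Subgroup.normalizer (M : Set X))
    (hfree : ∀ i j : ℕ, ∀ x ∈ R, x ∉ M → (u ^ i * d ^ j) * x * (u ^ i * d ^ j)⁻¹ = x →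
      u ^ i * d ^ j = 1) : 9 ∣ Nat.card R - Nat.card M := by
  have hKR : Subgroup.closure ({u, d} : Set X) ≤ Subgroup.normalizer (R : Set X) := by
    refine (Subgroup.closure_le _).2 ?_
    rintro x (h | h)
    · rw [h]; exact hRu
    · have h' : x = d := h
      rw [h']; exact hRd
  have hKM : Subgroup.closure ({u, d} : Set X) ≤ Subgroup.normalizer (M : Set X) := by
    refine (Subgroup.closure_le _).2 ?_
    rintro x (h | h)
    · rw [h]; exact hMu
    · have h' : x = d := h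
      rw [h']; exact hMd
  have hdiv := free_dvd (Subgroup.closure ({u, d} : Set X)) ((R : Set X) \ (M : Set X))
    (fun a ha y hy => ⟨(Subgroup.mem_normalizer_iff.1 (hKR ha) y).1 hy.1,
      fun hm => hy.2 ((Subgroup.mem_normalizer_iff.1 (hKM ha) y).2 hm)⟩)
    (fun a ha y hy hfix => by
      obtain ⟨i, j, hij⟩ := k_form u d hud hu3 hd3 a ha
      rw [hij] at hfix ⊢
      exact hfree i j y hy.1 hy.2 hfix)
  have h9 := k_card9 u d hud hu3 hd3 hu1 hdu
  have h9' : 9 ∣ Nat.card ↥((R : Set X) \ (M : Set X)) := dvd_trans h9 hdiv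
  have hsum : Nat.card ↥((R : Set X) \ (M : Set X)) + Nat.card M = Nat.card R :=
    Set.ncard_sdiff_add_ncard_of_subset (s := (M : Set X)) (t := (R : Set X)) hMR
  have hEq : Nat.card R - Nat.card M = Nat.card ↥((R : Set X) \ (M : Set X)) := by omega
  rw [hEq]; exact h9'

theorem invol_pow (x : X) (m : ℕ) :
    x ≠ 1 → x ^ (2 ^ m) = 1 → ∃ k : ℕ, x ^ k ≠ 1 ∧ x ^ k * x ^ k = 1 := by
  induction m generalizing x with
  | zero =>
    intro h1 h
    simp at h
    exact absurd h h1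
  | succ m ih =>
    intro h1 h
    by_cases hy : x ^ 2 = 1
    · exact ⟨1, by simpa using h1, by rw [pow_one, ← pow_two]; exact hy⟩
    · have h' : (x ^ 2) ^ (2 ^ m) = 1 := by rw [← pow_mul, ← pow_succ']; exact h
      obtain ⟨k, hk1, hk2⟩ := ih (x ^ 2) hy h'
      exact ⟨2 * k, by rw [pow_mul]; exact hk1, by rw [pow_mul]; exact hk2⟩

theorem core2_min [Finite X] (P : Subgroup X) (hP : IsPGroup 2 P)
    (hrank : ∀ V : Subgroup X, V ≤ P → IsMulCommutative V → Cfsg.PRankLE 2 2 V)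
    (d : X) (hdP : ∀ x, x ∈ P ↔ d * x * d⁻¹ ∈ P)
    (hfpfE : ∀ x ∈ omegaZ P, d * x * d⁻¹ = x → x = 1)
    (hE4 : Nat.card (omegaZ P) = 4)
    (g : X) (hdg : d * g = g * d) (hg3 : g * g * g = 1)
    (hgE : ∀ e ∈ omegaZ P, g * e * g⁻¹ = e)
    (hcount : ∀ R : Subgroup X, R ≤ P → d ∈ Subgroup.normalizer (R : Set X) →
      g ∈ Subgroup.normalizer (R : Set X) → 9 ∣ Nat.card R - Nat.card (fixR R g))
    (R : Subgroup X) (hRP : R ≤ P) (hdR : d ∈ Subgroup.normalizer (R : Set X))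
    (hgN : g ∈ Subgroup.normalizer (R : Set X))
    (hgR : ¬ ∀ x ∈ R, g * x * g⁻¹ = x)
    (hmin : ∀ R' : Subgroup X, R' ≤ R → R' ≠ R → d ∈ Subgroup.normalizer (R' : Set X) →
      g ∈ Subgroup.normalizer (R' : Set X) → ∀ x ∈ R', g * x * g⁻¹ = x) : False := by
  have hdR' : ∀ x, x ∈ R ↔ d * x * d⁻¹ ∈ R := Subgroup.mem_normalizer_iff.1 hdR
  have hgR' : ∀ x, x ∈ R ↔ g * x * g⁻¹ ∈ R := Subgroup.mem_normalizer_iff.1 hgN
  have hRne : R ≠ ⊥ := by
    intro hbot
    apply hgR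
    intro x hx
    rw [hbot] at hx
    rw [Subgroup.mem_bot.1 hx]; group
  -- Step 1: the subgroup generated by the `g x g⁻¹ x⁻¹` is all of `R`
  obtain ⟨W, hWdef⟩ : ∃ W : Subgroup X,
      W = Subgroup.closure {y | ∃ x ∈ R, y = g * x * g⁻¹ * x⁻¹} := ⟨_, rfl⟩
  have hWR : W ≤ R := by
    rw [hWdef]
    refine (Subgroup.closure_le _).2 ?_
    rintro y ⟨x, hx, rfl⟩
    exact R.mul_mem ((hgR' x).1 hx) (R.inv_mem hx)
  have hWd : ∀ w ∈ W, d * w * d⁻¹ ∈ W := by
    rw [hWdef]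
    refine conj_closure d _ ?_
    rintro y ⟨x, hx, rfl⟩
    refine Subgroup.subset_closure ⟨d * x * d⁻¹, (hdR' x).1 hx, ?_⟩
    calc d * (g * x * g⁻¹ * x⁻¹) * d⁻¹
        = (d * (g * x * g⁻¹) * d⁻¹) * (d * x * d⁻¹)⁻¹ := by group
      _ = g * (d * x * d⁻¹) * g⁻¹ * (d * x * d⁻¹)⁻¹ := by rw [conj_comm d g x hdg]
  have hWg : ∀ w ∈ W, g * w * g⁻¹ ∈ W := by
    rw [hWdef]
    refine conj_closure g _ ?_
    rintro y ⟨x, hx, rfl⟩
    refine Subgroup.subset_closure ⟨g * x * g⁻¹, (hgR' x).1 hx, ?_⟩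
    group
  have hWeq : W = R := by
    by_contra hne
    have hfixW := hmin W hWR hne (norm_of_le d W hWd) (norm_of_le g W hWg)
    apply hgR
    intro x hx
    have hw : g * x * g⁻¹ * x⁻¹ ∈ W := by
      rw [hWdef]; exact Subgroup.subset_closure ⟨x, hx, rfl⟩
    have hA : g * x * g⁻¹ = (g * x * g⁻¹ * x⁻¹) * x := by group
    have h3 := cube_triv g x (g * x * g⁻¹ * x⁻¹) hg3 hA (hfixW _ hw)
    have h1 := two_three P hP _ (hRP (hWR hw)) h3
    exact mul_inv_eq_one.1 h1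
  -- Step 2: squares are fixed by `g`
  obtain ⟨T, hTdef⟩ : ∃ T : Subgroup X,
      T = Subgroup.closure {y | ∃ x ∈ R, y = x * x} := ⟨_, rfl⟩
  have hTR : T ≤ R := by
    rw [hTdef]
    refine (Subgroup.closure_le _).2 ?_
    rintro y ⟨x, hx, rfl⟩
    exact R.mul_mem hx hx
  have hTd : ∀ w ∈ T, d * w * d⁻¹ ∈ T := by
    rw [hTdef]
    refine conj_closure d _ ?_
    rintro y ⟨x, hx, rfl⟩
    refine Subgroup.subset_closure ⟨d * x * d⁻¹, (hdR' x).1 hx, ?_⟩
    group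
  have hTg : ∀ w ∈ T, g * w * g⁻¹ ∈ T := by
    rw [hTdef]
    refine conj_closure g _ ?_
    rintro y ⟨x, hx, rfl⟩
    refine Subgroup.subset_closure ⟨g * x * g⁻¹, (hgR' x).1 hx, ?_⟩
    group
  have hTne : T ≠ R := by
    rw [hTdef]; exact sq_proper R (hP.to_le hRP) hRne
  have hT : ∀ x ∈ R, g * (x * x) * g⁻¹ = x * x := by
    intro x hx
    refine hmin T hTR hTne (norm_of_le d T hTd) (norm_of_le g T hTg) _ ?_
    rw [hTdef]; exact Subgroup.subset_closure ⟨x, hx, rfl⟩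
  -- Step 3: squares are central in `R`
  have hcR : ∀ x ∈ R, ∀ z ∈ R, z * (x * x) = (x * x) * z := by
    intro x hx z hz
    have hle : W ≤ Subgroup.centralizer {x * x} := by
      rw [hWdef]
      refine (Subgroup.closure_le _).2 ?_
      rintro y ⟨u, hu, rfl⟩
      show g * u * g⁻¹ * u⁻¹ ∈ Subgroup.centralizer {x * x}
      rw [Subgroup.mem_centralizer_iff]
      intro t ht
      rw [Set.mem_singleton_iff] at ht
      rw [ht]
      refine (comm_of_fix g (x * x) u (hT x hx) ?_).symm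
      have e : u⁻¹ * (x * x) * u = (u⁻¹ * x * u) * (u⁻¹ * x * u) := by group
      rw [e]
      exact hT _ (R.mul_mem (R.mul_mem (R.inv_mem hu) hx) hu)
    have hzW : z ∈ W := by rw [hWeq]; exact hz
    exact (Subgroup.mem_centralizer_iff.1 (hle hzW) (x * x) (Set.mem_singleton _)).symm
  -- Step 4: commutators lie in `Ω₁(Z(P))`
  have hcomm : ∀ x ∈ R, ∀ y ∈ R, x * y * x⁻¹ * y⁻¹ ∈ omegaZ P := by
    intro x hx y hy
    have hid : x * y * x⁻¹ * y⁻¹ = (x * x) * ((x⁻¹ * y) * (x⁻¹ * y)) * (y⁻¹ * y⁻¹) := by group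
    have hcen : ∀ z ∈ R, z * (x * y * x⁻¹ * y⁻¹) = (x * y * x⁻¹ * y⁻¹) * z := by
      intro z hz
      rw [hid]
      exact comm3 z _ _ _ (hcR x hx z hz) (hcR _ (R.mul_mem (R.inv_mem hx) hy) z hz)
        (hcR _ (R.inv_mem hy) z hz)
    have hc2 := comm_sq x y (hcR x hx y hy) (hcen x hx)
    exact inv_in P hrank hE4 _
      (hRP (R.mul_mem (R.mul_mem (R.mul_mem hx hy) (R.inv_mem hx)) (R.inv_mem hy))) hc2
  -- Step 5: squares lie in `Ω₁(Z(P))`
  have hsqE : ∀ x ∈ R, x * x ∈ omegaZ P := by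
    intro x hx
    have hgen : ∀ y ∈ {y | ∃ x ∈ R, y = g * x * g⁻¹ * x⁻¹}, y ∈ R ∧ y * y ∈ omegaZ P := by
      rintro y ⟨u, hu, rfl⟩
      have ha : g * u * g⁻¹ ∈ R := (hgR' u).1 hu
      refine ⟨R.mul_mem ha (R.inv_mem hu), ?_⟩
      have haa : (g * u * g⁻¹) * (g * u * g⁻¹) = u * u := by
        calc (g * u * g⁻¹) * (g * u * g⁻¹) = g * (u * u) * g⁻¹ := by group
          _ = u * u := hT u hu
      have he := hcomm (g * u * g⁻¹)⁻¹ (R.inv_mem ha) u⁻¹ (R.inv_mem hu)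
      have hce := he.2.2 (u * u) (hRP (R.mul_mem hu hu))
      rw [gen_sq (g * u * g⁻¹) u haa hce]
      exact he
    have hxW : x ∈ Subgroup.closure {y | ∃ x ∈ R, y = g * x * g⁻¹ * x⁻¹} := by
      rw [← hWdef, hWeq]; exact hx
    exact (sq_in R (omegaZ P) _ hgen hcomm x hxW).2
  -- Step 6: `Ω₁(Z(P)) ≤ R`
  have hER : omegaZ P ≤ R := by
    obtain ⟨x, hxR, hx1⟩ : ∃ x ∈ R, x ≠ 1 := by
      by_contra hcon
      push_neg at hcon
      exact hgR (fun x hx => by rw [hcon x hx]; group)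
    obtain ⟨e₀, h0R, h0E, h01⟩ : ∃ e₀ ∈ R, e₀ ∈ omegaZ P ∧ e₀ ≠ 1 := by
      by_cases hxx : x * x = 1
      · exact ⟨x, hxR, inv_in P hrank hE4 x (hRP hxR) hxx, hx1⟩
      · exact ⟨x * x, R.mul_mem hxR hxR, hsqE x hxR, hxx⟩
    have h1R : d * e₀ * d⁻¹ ∈ R := (hdR' e₀).1 h0R
    have h1E : d * e₀ * d⁻¹ ∈ omegaZ P := omegaZ_conj P d hdP e₀ h0E
    have h11 : d * e₀ * d⁻¹ ≠ 1 := by
      intro hh
      apply h01
      have e : e₀ = d⁻¹ * (d * e₀ * d⁻¹) * d := by group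
      rw [e, hh]; group
    have h10 : d * e₀ * d⁻¹ ≠ e₀ := fun hh => h01 (hfpfE e₀ h0E hh)
    intro e he
    rcases enum4 (omegaZ P) (fun a ha => ha.2.1) hE4 e₀ h0E h01 _ h1E h11 h10 e he
      with h | h | h | h
    · rw [h]; exact R.one_mem
    · rw [h]; exact h0R
    · rw [h]; exact h1R
    · rw [h]; exact R.mul_mem h0R h1R
  -- Step 7: counting
  have hMR : fixR R g ≤ R := fun x hx => hx.1
  have hdvd9 := hcount R hRP hdR hgN
  have hEM : omegaZ P ≤ fixR R g := fun e he => ⟨hER he, hgE e he⟩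
  have hMne : fixR R g ≠ R := by
    intro hEq
    apply hgR
    intro x hx
    have hx' : x ∈ fixR R g := by rw [hEq]; exact hx
    exact hx'.2
  haveI : Fact (Nat.Prime 2) := ⟨Nat.prime_two⟩
  obtain ⟨k, hk⟩ := IsPGroup.iff_card.1 (hP.to_le hRP)
  have hMdvd : Nat.card (fixR R g) ∣ Nat.card R := Subgroup.card_dvd_of_le hMR
  rw [hk] at hMdvd
  obtain ⟨l, hlk, hl⟩ := (Nat.dvd_prime_pow Nat.prime_two).1 hMdvd
  have hlne : l ≠ k := by
    intro hEq
    apply hMne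
    refine Subgroup.eq_of_le_of_card_ge hMR ?_
    rw [hk, hl, hEq]
  have h4 : 4 ≤ 2 ^ l := by
    rw [← hl, ← hE4]; exact Subgroup.card_le_of_le hEM
  have hl2 : 2 ≤ l := by
    by_contra hlt
    push_neg at hlt
    have hlt' : 2 ^ l < 2 ^ 2 := Nat.pow_lt_pow_right (by norm_num) hlt
    have e4 : (2 : ℕ) ^ 2 = 4 := by norm_num
    rw [e4] at hlt'
    exact absurd h4 (not_le.2 hlt')
  rw [hk, hl] at hdvd9
  have h128 : 128 ≤ Nat.card R := by
    rw [hk]; exact arith9 k l hl2 (lt_of_le_of_ne hlk hlne) hdvd9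
  -- Step 8: an involution outside `Ω₁(Z(P))`
  have hE4' : Nat.card ((omegaZ P).subgroupOf R) = 4 := by
    rw [← hE4]
    exact Nat.card_congr (Subgroup.subgroupOfEquivOfLe hER).toEquiv
  obtain ⟨x, hxE, hxx⟩ := CW2.main ((omegaZ P).subgroupOf R)
    (fun e he x => Subtype.ext ((Subgroup.mem_subgroupOf.1 he).2.2 (x : X) (hRP x.2)).symm)
    (fun e he => Subtype.ext (Subgroup.mem_subgroupOf.1 he).2.1)
    hE4'
    (fun x => Subgroup.mem_subgroupOf.2 (hsqE x x.2))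
    h128
  apply hxE
  refine Subgroup.mem_subgroupOf.2 (inv_in P hrank hE4 x (hRP x.2) ?_)
  exact congrArg Subtype.val hxx


theorem core2_all [Finite X] (P : Subgroup X) (hP : IsPGroup 2 P)
    (hrank : ∀ V : Subgroup X, V ≤ P → IsMulCommutative V → Cfsg.PRankLE 2 2 V)
    (d : X) (hdP : ∀ x, x ∈ P ↔ d * x * d⁻¹ ∈ P)
    (hfpfE : ∀ x ∈ omegaZ P, d * x * d⁻¹ = x → x = 1)
    (hE4 : Nat.card (omegaZ P) = 4)
    (g : X) (hdg : d * g = g * d) (hg3 : g * g * g = 1)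
    (hgE : ∀ e ∈ omegaZ P, g * e * g⁻¹ = e)
    (hcount : ∀ R : Subgroup X, R ≤ P → d ∈ Subgroup.normalizer (R : Set X) →
      g ∈ Subgroup.normalizer (R : Set X) → 9 ∣ Nat.card R - Nat.card (fixR R g)) :
    ∀ n : ℕ, ∀ R : Subgroup X, Nat.card R = n → R ≤ P →
      d ∈ Subgroup.normalizer (R : Set X) → g ∈ Subgroup.normalizer (R : Set X) →
      ∀ x ∈ R, g * x * g⁻¹ = x := by
  intro n
  induction n using Nat.strong_induction_on with
  | _ n ih =>
    intro R hn hRP hdR hgN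
    by_contra hgR
    refine core2_min P hP hrank d hdP hfpfE hE4 g hdg hg3 hgE hcount R hRP hdR hgN hgR ?_
    intro R' hle hne hdR' hgR'
    refine ih (Nat.card R') ?_ R' rfl (hle.trans hRP) hdR' hgR'
    rw [← hn]
    by_contra hlt
    push_neg at hlt
    exact hne (Subgroup.eq_of_le_of_card_ge hle hlt)

theorem main2 [Finite X] (P : Subgroup X) (hP : IsPGroup 2 P)
    (hrank : ∀ V : Subgroup X, V ≤ P → IsMulCommutative V → Cfsg.PRankLE 2 2 V)
    (d u : X) (hdP : ∀ x, x ∈ P ↔ d * x * d⁻¹ ∈ P) (huP : ∀ x, x ∈ P ↔ u * x * u⁻¹ ∈ P)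
    (hE4 : Nat.card (omegaZ P) = 4)
    (hfpfE : ∀ x ∈ omegaZ P, d * x * d⁻¹ = x → x = 1)
    (huE : ∀ e ∈ omegaZ P, u * e * u⁻¹ = e)
    (hud : u * d = d * u) (hu3 : u ^ 3 = 1) (hd3 : d ^ 3 = 1) :
    ∀ x ∈ P, u * x * u⁻¹ = x := by
  by_cases hu1 : u = 1
  · intro x _; rw [hu1]; group
  obtain ⟨e₀, he₀, he₀1⟩ : ∃ e ∈ omegaZ P, e ≠ 1 := by
    by_contra hcon
    push_neg at hcon
    have hbot : omegaZ P = ⊥ := (Subgroup.eq_bot_iff_forall _).2 hcon
    rw [hbot] at hE4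
    simp at hE4
  have hdu : d ∉ Subgroup.zpowers u := by
    intro hmem
    have hucent : u ∈ Subgroup.centralizer (omegaZ P : Set X) := by
      rw [Subgroup.mem_centralizer_iff]
      intro e he
      have hfe := huE e he
      calc e * u = (u * e * u⁻¹) * u := by rw [hfe]
        _ = u * e := inv_mul_cancel_right _ _
    have hdcent := (Subgroup.zpowers_le.2 hucent) hmem
    have hed := Subgroup.mem_centralizer_iff.1 hdcent e₀ he₀
    apply he₀1
    apply hfpfE e₀ he₀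
    rw [← hed]; exact mul_inv_cancel_right _ _
  have hu3' : u * u * u = 1 := by rw [← pow_three']; exact hu3
  have hcount : ∀ R : Subgroup X, R ≤ P → d ∈ Subgroup.normalizer (R : Set X) →
      u ∈ Subgroup.normalizer (R : Set X) → 9 ∣ Nat.card R - Nat.card (fixR R u) := by
    intro R hRP hdR huR
    have hMu : u ∈ Subgroup.normalizer (fixR R u : Set X) := by
      refine norm_of_le u _ ?_
      intro x hx
      rw [hx.2]; exact hx
    have hMd : d ∈ Subgroup.normalizer (fixR R u : Set X) := by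
      refine norm_of_le d _ ?_
      intro x hx
      refine ⟨(Subgroup.mem_normalizer_iff.1 hdR x).1 hx.1, ?_⟩
      rw [conj_comm u d x hud, hx.2]
    refine count_e9 u d hud hu3 hd3 hu1 hdu R (fixR R u) (fun x hx => hx.1) huR hdR hMu hMd ?_
    intro i j x hxR hxM hfix
    have hx1 : x ≠ 1 := by
      intro h; apply hxM; rw [h]; exact Subgroup.one_mem _
    obtain ⟨m, hm⟩ := hP ⟨x, hRP hxR⟩
    have hm' : x ^ (2 ^ m) = 1 := by
      have hv := congrArg Subtype.val hm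
      simpa using hv
    obtain ⟨k, hk1, hk2⟩ := invol_pow x m hx1 hm'
    have hyP : x ^ k ∈ P := Subgroup.pow_mem _ (hRP hxR) _
    have hyE : x ^ k ∈ omegaZ P := inv_in P hrank hE4 _ hyP hk2
    have hcx : Commute (u ^ i * d ^ j) x := by
      show (u ^ i * d ^ j) * x = x * (u ^ i * d ^ j)
      calc (u ^ i * d ^ j) * x
          = ((u ^ i * d ^ j) * x * (u ^ i * d ^ j)⁻¹) * (u ^ i * d ^ j) :=
            (inv_mul_cancel_right _ _).symm
        _ = x * (u ^ i * d ^ j) := by rw [hfix]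
    have hcy : Commute (u ^ i * d ^ j) (x ^ k) := hcx.pow_right k
    have hui : Commute (u ^ i) (x ^ k) := by
      have hu' : Commute u (x ^ k) := by
        show u * x ^ k = x ^ k * u
        calc u * x ^ k = (u * x ^ k * u⁻¹) * u := (inv_mul_cancel_right _ _).symm
          _ = x ^ k * u := by rw [huE _ hyE]
      exact hu'.pow_left i
    have hdj : Commute (d ^ j) (x ^ k) := by
      have h1 := hui.inv_left.mul_left hcy
      rwa [inv_mul_cancel_left] at h1
    rcases pow3_cases d hd3 j with hj | hj | hj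
    · rcases pow3_cases u hu3 i with hi | hi | hi
      · rw [hi, hj, one_mul]
      · exfalso; apply hxM
        rw [hi, hj, mul_one] at hcx
        exact ⟨hxR, by rw [hcx.eq]; exact mul_inv_cancel_right _ _⟩
      · exfalso; apply hxM
        rw [hi, hj, mul_one] at hcx
        have hcx' : Commute u x := Commute.inv_left_iff.1 hcx
        exact ⟨hxR, by rw [hcx'.eq]; exact mul_inv_cancel_right _ _⟩
    · exfalso; apply hk1
      rw [hj] at hdj
      exact hfpfE _ hyE (by rw [hdj.eq]; exact mul_inv_cancel_right _ _)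
    · exfalso; apply hk1
      rw [hj] at hdj
      have hdj' : Commute d (x ^ k) := Commute.inv_left_iff.1 hdj
      exact hfpfE _ hyE (by rw [hdj'.eq]; exact mul_inv_cancel_right _ _)
  exact core2_all P hP hrank d hdP hfpfE hE4 u hud.symm hu3' huE hcount (Nat.card P) P rfl le_rfl
    (Subgroup.mem_normalizer_iff.2 hdP) (Subgroup.mem_normalizer_iff.2 huP)

end Cfsg.Agent.Helper10.R3
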