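import Mathlib

set_option autoImplicit false
set_option maxHeartbeats 1000000

/-! # Facts about the dihedral group of order 8 (helper10) -/

namespace Cfsg.Agent.Helper10.T72

open DihedralGroup

theorem d4_enum : ∀ x : DihedralGroup 4, x = r 0 ∨ x = r 1 ∨ x = r 2 ∨ x = r 3 ∨ x = sr 0 ∨
    x = sr 1 ∨ x = sr 2 ∨ x = sr 3 := by decide

theorem d4_f1 : (r 1 : DihedralGroup 4) * (r 1 * (r 1 * r 1)) = 1 := by decide

theorem d4_f2 : (sr 0 : DihedralGroup 4) * sr 0 = 1 := by decide

theorem d4_f3 : (sr 0 : DihedralGroup 4) * r 1 = r 1 * (r 1 * (r 1 * sr 0)) := by decide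

theorem d4_f4 : (r 1 : DihedralGroup 4) * r 1 ≠ 1 := by decide

theorem d4_f5 : (sr 0 : DihedralGroup 4) * (r 1 * r 1) ≠ 1 := by decide

theorem d4_f6 : ∀ y : DihedralGroup 4, y ^ 8 = 1 := by decide

theorem d4_f7 : ∀ y : DihedralGroup 4, ∃ i < 4, ∃ j < 2, y = r 1 ^ i * sr 0 ^ j := by decide

/-- the first four-group -/
def K1 : Subgroup (DihedralGroup 4) where
  carrier := {x | x = 1 ∨ x = r 1 * r 1 ∨ x = sr 0 ∨ x = sr 0 * (r 1 * r 1)}
  mul_mem' := by intro a b; revert a b; decide
  one_mem' := by decide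
  inv_mem' := by intro a; revert a; decide

/-- the second four-group -/
def K2 : Subgroup (DihedralGroup 4) where
  carrier := {x | x = 1 ∨ x = r 1 * r 1 ∨ x = sr 0 * r 1 ∨ x = sr 0 * r 1 * (r 1 * r 1)}
  mul_mem' := by intro a b; revert a b; decide
  one_mem' := by decide
  inv_mem' := by intro a; revert a; decide

theorem mem_K1 {x : DihedralGroup 4} :
    x ∈ K1 ↔ x = 1 ∨ x = r 1 * r 1 ∨ x = sr 0 ∨ x = sr 0 * (r 1 * r 1) := Iff.rfl

theorem mem_K2 {x : DihedralGroup 4} :
    x ∈ K2 ↔ x = 1 ∨ x = r 1 * r 1 ∨ x = sr 0 * r 1 ∨ x = sr 0 * r 1 * (r 1 * r 1) := Iff.rfl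

theorem card_K1 : Nat.card ↥K1 = 4 := by
  have e : Nat.card ↥K1 = Nat.card {x : DihedralGroup 4 // x = 1 ∨ x = r 1 * r 1 ∨ x = sr 0 ∨
      x = sr 0 * (r 1 * r 1)} := Nat.card_congr (Equiv.subtypeEquivRight (fun x => mem_K1))
  rw [e, Nat.card_eq_fintype_card]; decide

theorem card_K2 : Nat.card ↥K2 = 4 := by
  have e : Nat.card ↥K2 = Nat.card {x : DihedralGroup 4 // x = 1 ∨ x = r 1 * r 1 ∨ x = sr 0 * r 1 ∨
      x = sr 0 * r 1 * (r 1 * r 1)} := Nat.card_congr (Equiv.subtypeEquivRight (fun x => mem_K2))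
  rw [e, Nat.card_eq_fintype_card]; decide

theorem K1_sq : ∀ k ∈ K1, k ^ 2 = 1 := by
  intro k hk
  rcases mem_K1.1 hk with h | h | h | h <;> rw [h] <;> decide

theorem K2_sq : ∀ k ∈ K2, k ^ 2 = 1 := by
  intro k hk
  rcases mem_K2.1 hk with h | h | h | h <;> rw [h] <;> decide

/-- the subgroups of order 4 and exponent 2 of the dihedral group of order 8 -/
theorem d4_class (B : Subgroup (DihedralGroup 4)) (h4 : Nat.card ↥B = 4)
    (hexp : ∀ b ∈ B, b ^ 2 = 1) : B = K1 ∨ B = K2 := by
  have n1 : (r 1 : DihedralGroup 4) ∉ B := fun hb => absurd (hexp _ hb) (by decide)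
  have n3 : (r 3 : DihedralGroup 4) ∉ B := fun hb => absurd (hexp _ hb) (by decide)
  by_cases h1 : (sr 1 : DihedralGroup 4) ∈ B
  · have n0 : (sr 0 : DihedralGroup 4) ∉ B := by
      intro hb
      have h := mul_mem hb h1
      rw [show (sr 0 : DihedralGroup 4) * sr 1 = r 1 by decide] at h
      exact n1 h
    have n2 : (sr 2 : DihedralGroup 4) ∉ B := by
      intro hb
      have h := mul_mem h1 hb
      rw [show (sr 1 : DihedralGroup 4) * sr 2 = r 1 by decide] at h
      exact n1 h
    right
    apply Subgroup.eq_of_le_of_card_ge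
    · intro x hx
      rcases d4_enum x with h | h | h | h | h | h | h | h <;> rw [h] at hx ⊢
      · exact mem_K2.2 (by decide)
      · exact absurd hx n1
      · exact mem_K2.2 (by decide)
      · exact absurd hx n3
      · exact absurd hx n0
      · exact mem_K2.2 (by decide)
      · exact absurd hx n2
      · exact mem_K2.2 (by decide)
    · rw [h4, card_K2]
  · by_cases h3 : (sr 3 : DihedralGroup 4) ∈ B
    · have n0 : (sr 0 : DihedralGroup 4) ∉ B := by
        intro hb
        have h := mul_mem h3 hb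
        rw [show (sr 3 : DihedralGroup 4) * sr 0 = r 1 by decide] at h
        exact n1 h
      have n2 : (sr 2 : DihedralGroup 4) ∉ B := by
        intro hb
        have h := mul_mem hb h3
        rw [show (sr 2 : DihedralGroup 4) * sr 3 = r 1 by decide] at h
        exact n1 h
      right
      apply Subgroup.eq_of_le_of_card_ge
      · intro x hx
        rcases d4_enum x with h | h | h | h | h | h | h | h <;> rw [h] at hx ⊢
        · exact mem_K2.2 (by decide)
        · exact absurd hx n1
        · exact mem_K2.2 (by decide)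
        · exact absurd hx n3
        · exact absurd hx n0
        · exact mem_K2.2 (by decide)
        · exact absurd hx n2
        · exact mem_K2.2 (by decide)
      · rw [h4, card_K2]
    · left
      apply Subgroup.eq_of_le_of_card_ge
      · intro x hx
        rcases d4_enum x with h | h | h | h | h | h | h | h <;> rw [h] at hx ⊢
        · exact mem_K1.2 (by decide)
        · exact absurd hx n1
        · exact mem_K1.2 (by decide)
        · exact absurd hx n3
        · exact mem_K1.2 (by decide)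
        · exact absurd hx h1
        · exact mem_K1.2 (by decide)
        · exact absurd hx h3
      · rw [h4, card_K1]

/-- a dihedral subgroup of order 8 is the injective image of `DihedralGroup 4` -/
theorem exists_psi {S : Type*} [Group S] (X : Subgroup S)
    (hX : Nonempty (↥X ≃* DihedralGroup 4)) :
    ∃ ψ : DihedralGroup 4 →* S, Function.Injective ψ ∧ (∀ y, ψ y ∈ X) ∧
      (∀ x ∈ X, ∃ y, ψ y = x) := by
  obtain ⟨e⟩ := hX
  refine ⟨X.subtype.comp e.symm.toMonoidHom, ?_, ?_, ?_⟩
  · intro a b hab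
    have h : e.symm a = e.symm b := Subtype.ext hab
    exact e.symm.injective h
  · intro y; exact (e.symm y).2
  · intro x hx
    refine ⟨e ⟨x, hx⟩, ?_⟩
    show ((e.symm (e ⟨x, hx⟩) : ↥X) : S) = x
    rw [MulEquiv.symm_apply_apply]

end Cfsg.Agent.Helper10.T72
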