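import Mathlib

set_option autoImplicit false

namespace Cfsg.Agent.Helper10

open scoped Classical in
/-- Trace (norm) decomposition: a finite group `Γ` acts on a finite abelian `p`-group `A`, and
`T ≤ Γ` has index prime to `p`.  Then the `Γ`-fixed points are a direct factor of the `T`-fixed
points (elementwise form). -/
theorem trace_decomp_comm {Γ A : Type*} [Group Γ] [Finite Γ] [iA : CommGroup A] {p : ℕ}
    [Fact p.Prime] (hA : IsPGroup p A) (φ : Γ →* MulAut A) (T : Subgroup Γ)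
    (hidx : ¬ p ∣ T.index) :
    ∃ C : Subgroup A, (∀ c ∈ C, ∀ σ ∈ T, φ σ c = c) ∧ (∀ a ∈ C, (∀ g, φ g a = a) → a = 1) ∧
      ∀ a : A, (∀ σ ∈ T, φ σ a = a) → ∃ w c : A, (∀ g, φ g w = w) ∧ c ∈ C ∧ a = w * c := by
  have : Fintype (Γ ⧸ T) := Fintype.ofFinite _
  have hm : p.Coprime T.index := (Nat.Prime.coprime_iff_not_dvd (Fact.out : p.Prime)).2 hidx
  let τ : A →* A := ∏ q : Γ ⧸ T, (φ (Quotient.out q)).toMonoidHom
  have hτ : ∀ a : A, τ a = ∏ q : Γ ⧸ T, φ (Quotient.out q) a := by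
    intro a
    show (∏ q : Γ ⧸ T, (φ (Quotient.out q)).toMonoidHom) a = _
    rw [MonoidHom.finsetProd_apply]
    rfl
  have key1 : ∀ a : A, (∀ σ ∈ T, φ σ a = a) → ∀ g, φ g (τ a) = τ a := by
    intro a ha g
    rw [hτ, map_prod]
    rw [← Equiv.prod_comp (MulAction.toPerm g : Γ ⧸ T ≃ Γ ⧸ T) (fun q => φ (Quotient.out q) a)]
    apply Finset.prod_congr rfl
    intro q _
    have h1 : ((Quotient.out (g • q) : Γ) : Γ ⧸ T) = ((g * Quotient.out q : Γ) : Γ ⧸ T) := by
      rw [QuotientGroup.out_eq']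
      conv_lhs => rw [← QuotientGroup.out_eq' q]
      rfl
    have h2 : (Quotient.out (g • q) : Γ)⁻¹ * (g * Quotient.out q) ∈ T := QuotientGroup.eq.1 h1
    have h3 := ha _ h2
    have e : g * Quotient.out q =
        Quotient.out (g • q) * ((Quotient.out (g • q) : Γ)⁻¹ * (g * Quotient.out q)) := by group
    show φ g (φ (Quotient.out q) a) = φ (Quotient.out (g • q)) a
    calc φ g (φ (Quotient.out q) a) = φ (g * Quotient.out q) a := by rw [map_mul]; rfl
      _ = φ (Quotient.out (g • q) * ((Quotient.out (g • q) : Γ)⁻¹ * (g * Quotient.out q))) a := by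
          rw [← e]
      _ = φ (Quotient.out (g • q)) (φ ((Quotient.out (g • q) : Γ)⁻¹ * (g * Quotient.out q)) a) := by
          rw [map_mul]; rfl
      _ = φ (Quotient.out (g • q)) a := by rw [h3]
  have key2 : ∀ a : A, (∀ g, φ g a = a) → τ a = a ^ T.index := by
    intro a ha
    rw [hτ]
    have : ∀ q : Γ ⧸ T, φ (Quotient.out q) a = a := fun q => ha _
    rw [Finset.prod_congr rfl (fun q _ => this q), Finset.prod_const, Finset.card_univ,
      Subgroup.index_eq_card, Nat.card_eq_fintype_card]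
  let C : Subgroup A :=
    { carrier := {a | (∀ σ ∈ T, φ σ a = a) ∧ τ a = 1}
      mul_mem' := by
        rintro a b ⟨ha1, ha2⟩ ⟨hb1, hb2⟩
        refine ⟨fun σ hσ => ?_, ?_⟩
        · rw [map_mul, ha1 σ hσ, hb1 σ hσ]
        · rw [map_mul, ha2, hb2, one_mul]
      one_mem' := ⟨fun σ _ => map_one _, map_one _⟩
      inv_mem' := by
        rintro a ⟨ha1, ha2⟩
        refine ⟨fun σ hσ => ?_, ?_⟩
        · rw [map_inv, ha1 σ hσ]
        · rw [map_inv, ha2, inv_one] }
  refine ⟨C, fun c hc => hc.1, ?_, ?_⟩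
  · rintro a ⟨-, ha2⟩ hfix
    rw [key2 a hfix] at ha2
    have h1 : (hA.powEquiv hm) a = (hA.powEquiv hm) 1 := by
      show a ^ T.index = 1 ^ T.index
      rw [ha2, one_pow]
    exact (hA.powEquiv hm).injective h1
  · intro a ha
    obtain ⟨w, hw⟩ := (hA.powEquiv hm).surjective (τ a)
    have hw' : w ^ T.index = τ a := hw
    have hwfix : ∀ g, φ g w = w := by
      intro g
      apply (hA.powEquiv hm).injective
      show (φ g w) ^ T.index = w ^ T.index
      rw [← map_pow, hw', key1 a ha g]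
    refine ⟨w, a * w⁻¹, hwfix, ⟨fun σ hσ => ?_, ?_⟩, ?_⟩
    · rw [map_mul, map_inv, ha σ hσ, hwfix σ]
    · rw [map_mul, map_inv, key2 w hwfix, hw', mul_inv_cancel]
    · rw [mul_comm a, mul_inv_cancel_left]

end Cfsg.Agent.Helper10
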